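import Mathlib

/-!
# Permutations of `ZMod p` respecting a proper multiplicative subgroup

If `A` is a proper subgroup of the units of `ZMod p` and `σ` is an injective self-map of `ZMod p`
with `σ (x + a) - σ x ∈ A` for all `x` and all `a ∈ A`, then `σ` is an affine map `x ↦ c x + b`
(a special case of theorems of Carlitz and McConnel; the proof is the polynomial method).
-/

set_option autoImplicit false

namespace Cfsg.Agent.Lib.Helper20.AGL1

open Polynomial

/-- Power sums over a finite subgroup of the units of a field vanish in the range `0 < l < #A`. -/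
theorem sum_pow_subgroup_units {K : Type*} [Field K] (A : Subgroup Kˣ) [Fintype A] (l : ℕ)
    (hl0 : 0 < l) (hl : l < Fintype.card A) : ∑ a : A, (((a : Kˣ) : K)) ^ l = 0 := by
  let f : A →* K := (powMonoidHom l).comp ((Units.coeHom K).comp A.subtype)
  have hf : f ≠ 1 := by
    obtain ⟨ζ, hζ⟩ := IsCyclic.exists_generator (α := A)
    intro h1
    have h2 : f ζ = 1 := by rw [h1]; rfl
    have h3 : ζ ^ l = 1 := by
      apply Subtype.ext
      apply Units.ext
      simpa [f] using h2
    have h4 := orderOf_dvd_of_pow_eq_one h3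
    rw [orderOf_eq_card_of_forall_mem_zpowers hζ, Nat.card_eq_fintype_card] at h4
    exact absurd (Nat.le_of_dvd hl0 h4) (not_le.mpr hl)
  exact sum_hom_units_eq_zero f hf

theorem sum_add_pow_subgroup_units {K : Type*} [Field K] (A : Subgroup Kˣ) [Fintype A] (j : ℕ)
    (hj : j < Fintype.card A) (x : K) :
    ∑ a : A, (x + ((a : Kˣ) : K)) ^ j = (Fintype.card A : K) * x ^ j := by
  simp_rw [add_pow]
  rw [Finset.sum_comm, Finset.sum_eq_single j]
  · simp [Finset.card_univ, mul_comm]
  · intro l hl hlj
    have hlt : l < j := lt_of_le_of_ne (Nat.lt_succ_iff.mp (Finset.mem_range.mp hl)) hlj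
    rw [← Finset.sum_mul, ← Finset.mul_sum, sum_pow_subgroup_units A (j - l) (by omega) (by omega)]
    simp
  · intro h; exact absurd (Finset.self_mem_range_succ j) h

/-- A polynomial of degree between `#A` and `p - 1` is not in the kernel of `T - #A`, where
`(T u)(x) = ∑_{a ∈ A} u (x + a)`. -/
theorem not_forall_sum_eval {p : ℕ} [Fact p.Prime] (A : Subgroup (ZMod p)ˣ) [Fintype A]
    (P : (ZMod p)[X])
    (h1 : Fintype.card A ≤ P.natDegree) (h2 : P.natDegree < p) :
    ¬ ∀ x : ZMod p, ∑ a : A, P.eval (x + ((a : (ZMod p)ˣ) : ZMod p)) =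
      (Fintype.card A : ZMod p) * P.eval x := by
  intro hall
  have hp : p.Prime := Fact.out
  set m := Fintype.card A with hm
  have hm0 : 0 < m := Fintype.card_pos
  set N := P.natDegree with hN
  set Q : (ZMod p)[X] :=
    ∑ a : A, Polynomial.taylor (((a : (ZMod p)ˣ) : ZMod p)) P - C (m : ZMod p) * P with hQ
  have hQeval : ∀ x, Q.eval x = 0 := by
    intro x
    rw [hQ, eval_sub, eval_finsetSum, eval_mul, eval_C]
    simp only [Polynomial.taylor_eval]
    rw [hall x, sub_self]
  have hQdeg : Q.natDegree < p := by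
    refine lt_of_le_of_lt ?_ h2
    refine (natDegree_sub_le _ _).trans (max_le ?_ ?_)
    · apply natDegree_sum_le_of_forall_le
      intro a _
      rw [Polynomial.natDegree_taylor]
    · exact natDegree_C_mul_le _ _
  have hQ0 : Q = 0 := by
    apply eq_zero_of_natDegree_lt_card_of_eval_eq_zero Q Function.injective_id hQeval
    rw [ZMod.card]
    exact hQdeg
  set k := N - m with hk
  have hkm : k + m = N := by omega
  have hcoeff : Q.coeff k = (m : ZMod p) * (N.choose k : ZMod p) * P.coeff N := by
    rw [hQ, coeff_sub, finsetSum_coeff, coeff_C_mul]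
    simp only [Polynomial.taylor_coeff]
    have hev : ∀ a : A, (hasseDeriv k P).eval (((a : (ZMod p)ˣ) : ZMod p)) =
        ∑ i ∈ Finset.range (m + 1), ((i + k).choose k : ZMod p) * P.coeff (i + k) *
          (((a : (ZMod p)ˣ) : ZMod p)) ^ i := by
      intro a
      rw [eval_eq_sum_range' (n := m + 1)]
      · apply Finset.sum_congr rfl
        intro i _
        rw [hasseDeriv_coeff]
      · have := natDegree_hasseDeriv_le P k
        omega
    rw [Finset.sum_congr rfl (fun a _ => hev a), Finset.sum_comm]
    simp_rw [← Finset.mul_sum]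
    rw [Finset.sum_range_succ, Finset.sum_eq_single 0]
    · have hpm : ∀ a : A, (((a : (ZMod p)ˣ) : ZMod p)) ^ m = 1 := by
        intro a
        have h3 : a ^ m = 1 := by rw [hm]; exact pow_card_eq_one
        have h4 := congrArg (fun b : A => ((b : (ZMod p)ˣ) : ZMod p)) h3
        simpa using h4
      simp only [pow_zero, zero_add, Nat.choose_self, Nat.cast_one, one_mul, Finset.sum_const,
        Finset.card_univ, nsmul_eq_mul, mul_one, hpm]
      rw [Nat.add_comm m k, hkm, ← hm]
      ring
    · intro i hi hi0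
      rw [sum_pow_subgroup_units A i (Nat.pos_of_ne_zero hi0) (by rw [← hm]; exact Finset.mem_range.mp hi),
        mul_zero]
    · intro h
      exact absurd (Finset.mem_range.mpr hm0) h
  rw [hQ0, coeff_zero] at hcoeff
  have hmp : (m : ZMod p) ≠ 0 := by
    intro h
    rw [ZMod.natCast_eq_zero_iff] at h
    have := Nat.le_of_dvd hm0 h
    omega
  have hch : (N.choose k : ZMod p) ≠ 0 := by
    intro h
    rw [ZMod.natCast_eq_zero_iff] at h
    have h3 : p ∣ N.factorial := by
      have h4 := Nat.choose_mul_factorial_mul_factorial (show k ≤ N by omega)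
      rw [← h4]
      exact Dvd.dvd.mul_right (Dvd.dvd.mul_right h _) _
    rw [hp.dvd_factorial] at h3
    omega
  have hlead : P.coeff N ≠ 0 := by
    have hP0 : P ≠ 0 := by
      rintro rfl
      simp at hN
      omega
    exact leadingCoeff_ne_zero.mpr hP0
  exact (mul_ne_zero (mul_ne_zero hmp hch) hlead) hcoeff.symm

/-- The main theorem. -/
theorem affine_of_diff_mem {p : ℕ} [Fact p.Prime] (A : Subgroup (ZMod p)ˣ) (hA : A ≠ ⊤)
    (σ : ZMod p → ZMod p) (hσinj : Function.Injective σ)
    (h : ∀ (x : ZMod p) (a : A), ∃ a' : A,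
      σ (x + ((a : (ZMod p)ˣ) : ZMod p)) - σ x = ((a' : (ZMod p)ˣ) : ZMod p)) :
    ∃ c b : ZMod p, ∀ x, σ x = c * x + b := by
  classical
  have hp : p.Prime := Fact.out
  haveI : NeZero p := ⟨hp.ne_zero⟩
  haveI : Fintype A := Fintype.ofFinite A
  set m := Fintype.card A with hm
  have hm0 : 0 < m := Fintype.card_pos
  have hK : ∀ (u : ZMod p → ZMod p) (x : ZMod p),
      ∑ a : A, u (σ (x + ((a : (ZMod p)ˣ) : ZMod p))) =
        ∑ a : A, u (σ x + ((a : (ZMod p)ˣ) : ZMod p)) := by
    intro u x
    choose e he using h x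
    have hinj : Function.Injective e := by
      intro a a' haa
      have h1 := he a
      have h2 := he a'
      rw [haa] at h1
      have h3 : σ (x + ((a : (ZMod p)ˣ) : ZMod p)) = σ (x + ((a' : (ZMod p)ˣ) : ZMod p)) :=
        sub_left_injective (h1.trans h2.symm)
      have h4 := add_left_cancel (hσinj h3)
      exact Subtype.ext (Units.ext h4)
    have hbij : Function.Bijective e := Finite.injective_iff_bijective.mp hinj
    rw [← Function.Bijective.sum_comp hbij (fun a => u (σ x + ((a : (ZMod p)ˣ) : ZMod p)))]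
    apply Finset.sum_congr rfl
    intro a _
    rw [← he a, add_sub_cancel]
  have hinv : ∀ u : ZMod p → ZMod p,
      (∀ y, ∑ a : A, u (y + ((a : (ZMod p)ˣ) : ZMod p)) = (m : ZMod p) * u y) →
      ∀ x, ∑ a : A, u (σ (x + ((a : (ZMod p)ˣ) : ZMod p))) = (m : ZMod p) * u (σ x) := by
    intro u hu x
    rw [hK u x, hu]
  by_cases hm1 : m = 1
  · have hsub : Subsingleton A := Fintype.card_le_one_iff_subsingleton.mp (by omega)
    have hstep : ∀ x, σ (x + 1) = σ x + 1 := by
      intro x
      obtain ⟨a', ha'⟩ := h x 1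
      have h1 : a' = 1 := Subsingleton.elim _ _
      rw [h1] at ha'
      simp only [OneMemClass.coe_one, Units.val_one] at ha'
      exact sub_eq_iff_eq_add'.mp ha'
    have hnat : ∀ n : ℕ, σ (n : ZMod p) = n + σ 0 := by
      intro n
      induction n with
      | zero => simp
      | succ n ih => rw [Nat.cast_succ, hstep, ih]; ring
    refine ⟨1, σ 0, fun x => ?_⟩
    have := hnat x.val
    rw [ZMod.natCast_zmod_val] at this
    rw [this, one_mul]
  have hm2 : 2 ≤ m := by omega
  have hmp : 2 * m ≤ p - 1 := by
    have hdvd : m ∣ p - 1 := by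
      have := Subgroup.card_subgroup_dvd_card A
      rwa [Nat.card_eq_fintype_card, Nat.card_eq_fintype_card, ZMod.card_units] at this
    have hne : m ≠ p - 1 := by
      intro hmeq
      apply hA
      apply Subgroup.eq_top_of_card_eq
      rw [Nat.card_eq_fintype_card, Nat.card_eq_fintype_card, ZMod.card_units, ← hmeq]
    obtain ⟨t, ht⟩ := hdvd
    have hp1 : 0 < p - 1 := by have := hp.two_le; omega
    have ht0 : t ≠ 0 := by rintro rfl; omega
    have ht1 : t ≠ 1 := by rintro rfl; omega
    have ht2 : 2 ≤ t := by omega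
    calc 2 * m = m * 2 := by ring
      _ ≤ m * t := Nat.mul_le_mul_left m ht2
      _ = p - 1 := ht.symm
  set P : (ZMod p)[X] := Lagrange.interpolate Finset.univ id σ with hP
  have hPeval : ∀ x, P.eval x = σ x := fun x =>
    Lagrange.eval_interpolate_at_node σ (Set.injOn_id _) (Finset.mem_univ x)
  have hPdeg : P.natDegree < p := by
    have h1 := Lagrange.degree_interpolate_lt (s := Finset.univ) (v := id) σ (Set.injOn_id _)
    rw [Finset.card_univ, ZMod.card] at h1
    by_cases hP0 : P = 0
    · rw [hP0, natDegree_zero]; exact hp.pos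
    · exact (natDegree_lt_iff_degree_lt hP0).mpr h1
  set e := P.natDegree with he
  have hσV : ∀ x, ∑ a : A, P.eval (x + ((a : (ZMod p)ˣ) : ZMod p)) = (m : ZMod p) * P.eval x := by
    intro x
    simp only [hPeval]
    have := hinv id (fun y => by simpa using sum_add_pow_subgroup_units A 1 (by omega) y) x
    simpa using this
  have hem : e < m := by
    by_contra hcon
    push Not at hcon
    exact not_forall_sum_eval A P hcon hPdeg hσV
  have he1 : e ≠ 0 := by
    intro he0
    have hc := Polynomial.eq_C_of_natDegree_eq_zero (he.symm.trans he0)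
    have h0 := hPeval 0
    have h1 := hPeval 1
    rw [hc, eval_C] at h0 h1
    have := hσinj (h0.symm.trans h1)
    exact zero_ne_one this
  have he_le1 : e ≤ 1 := by
    by_contra hcon
    push Not at hcon
    set j := (m - 1) / e + 1 with hj
    have hq := Nat.div_add_mod (m - 1) e
    have hr := Nat.mod_lt (m - 1) (show 0 < e by omega)
    set t := e * ((m - 1) / e) with ht
    have hje : j * e = t + e := by rw [hj, ht]; ring
    have hjm : j < m := by
      have : (m - 1) / e ≤ (m - 1) / 2 := Nat.div_le_div_left hcon (by norm_num)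
      omega
    have hV : ∀ x, ∑ a : A, (P ^ j).eval (x + ((a : (ZMod p)ˣ) : ZMod p)) =
        (m : ZMod p) * (P ^ j).eval x := by
      intro x
      simp only [eval_pow, hPeval]
      exact hinv (fun y => y ^ j) (fun y => sum_add_pow_subgroup_units A j hjm y) x
    apply not_forall_sum_eval A (P ^ j) _ _ hV
    · rw [natDegree_pow, ← he, hje]; omega
    · rw [natDegree_pow, ← he, hje]; omega
  obtain ⟨c, b, hcb⟩ : ∃ c b, P = C c * X + C b :=
    ⟨_, _, Polynomial.eq_X_add_C_of_natDegree_le_one (show P.natDegree ≤ 1 by omega)⟩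
  refine ⟨c, b, fun x => ?_⟩
  rw [← hPeval x, hcb]
  simp

end Cfsg.Agent.Lib.Helper20.AGL1
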