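import Mathlib

/-!
# Maps agreeing with affine maps on all triples of points

Over a field of characteristic different from `2`, a map which agrees on every triple of points
with some affine map is itself affine.
-/

set_option autoImplicit false

namespace Cfsg.Agent.Lib.Helper20

theorem exists_linear_of_triples {K V : Type*} [Field K] [AddCommGroup V] [Module K V]
    (h2 : (2 : K) ≠ 0) (σ : V → V)
    (hσ : ∀ u v w : V, ∃ (A : V →ₗ[K] V) (b : V),
      σ u = A u + b ∧ σ v = A v + b ∧ σ w = A w + b) :
    ∃ T : V →ₗ[K] V, ∀ x, σ x = T x + σ 0 := by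
  have key : ∀ (u v : V) (c : K), σ (u + c • (v - u)) = σ u + c • (σ v - σ u) := by
    intro u v c
    obtain ⟨A, b, h1, h2', h3⟩ := hσ u v (u + c • (v - u))
    rw [h3, h1, h2', map_add, map_smul, map_sub]
    have : A v + b - (A u + b) = A v - A u := by abel
    rw [this]
    abel
  obtain ⟨h, hh⟩ : ∃ h : K, h + h = 1 := ⟨(2 : K)⁻¹, by rw [← two_mul, mul_inv_cancel₀ h2]⟩
  have hhom : ∀ (c : K) (x : V), σ (c • x) - σ 0 = c • (σ x - σ 0) := by
    intro c x
    have := key 0 x c
    simp only [sub_zero, zero_add] at this
    rw [this]; abel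
  have hmid : ∀ u v : V, σ (h • (u + v)) - σ 0 = h • ((σ u - σ 0) + (σ v - σ 0)) := by
    intro u v
    have e : u + h • (v - u) = h • (u + v) := by
      calc u + h • (v - u) = (h + h) • u + h • (v - u) := by rw [hh, one_smul]
        _ = h • (u + v) := by rw [add_smul, smul_sub, smul_add]; abel
    have := key u v h
    rw [e] at this
    rw [this]
    calc σ u + h • (σ v - σ u) - σ 0 = (h + h) • σ u + h • (σ v - σ u) - (h + h) • σ 0 := by
          rw [hh, one_smul, one_smul]
      _ = h • ((σ u - σ 0) + (σ v - σ 0)) := by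
          rw [add_smul, add_smul, smul_sub, smul_add, smul_sub, smul_sub]; abel
  have hadd : ∀ u v : V, σ (u + v) - σ 0 = (σ u - σ 0) + (σ v - σ 0) := by
    intro u v
    have h1 := hmid u v
    have h1' := hhom (1 + 1) (h • (u + v))
    have e : (1 + 1 : K) * h = 1 := by rw [add_mul, one_mul, hh]
    rw [smul_smul, e, one_smul] at h1'
    rw [h1', h1, smul_smul, e, one_smul]
  exact ⟨{ toFun := fun x => σ x - σ 0
           map_add' := hadd
           map_smul' := fun c x => by simpa using hhom c x }, fun x => by simp⟩

end Cfsg.Agent.Lib.Helper20
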