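import Mathlib

/-!
Critical groups for a set of element orders: an affine group model with spectrum `{1, p, q}`,
minimal sections, and products of critical groups of coprime orders.
-/

set_option autoImplicit false
set_option linter.style.haveILetI false
set_option linter.unusedSectionVars false
set_option linter.unusedVariables false

namespace Cfsg.Agent.Lib.Helper20.Critical

/-- `Y` is critical for `Ω`, apart from the condition on its own spectrum: no proper section
has spectrum `Ω`. -/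
def Crit (Y : Type*) [Group Y] (Ω : Set ℕ) : Prop :=
  ∀ (H : Subgroup Y) (N : Subgroup ↥H) [N.Normal], (H ≠ ⊤ ∨ N ≠ ⊥) →
    Set.range (orderOf : (↥H ⧸ N) → ℕ) ≠ Ω

/-- The elements of `r`-th power one are closed under multiplication. -/
def InvP (r : ℕ) (Y : Type*) [Group Y] : Prop :=
  ∀ g h : Y, g ^ r = 1 → h ^ r = 1 → (g * h) ^ r = 1

/-- The set `{1, p, q}`. -/
def Om (p q : ℕ) : Set ℕ := {m | m = 1 ∨ m = p ∨ m = q}

theorem mem_Om (p q m : ℕ) : m ∈ Om p q ↔ (m = 1 ∨ m = p ∨ m = q) := Iff.rfl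

theorem invP_of_equiv {A B : Type*} [Group A] [Group B] (r : ℕ) (φ : A ≃* B) (h : InvP r A) :
    InvP r B := by
  intro g k hg hk
  have h1 : (φ.symm g) ^ r = 1 := by rw [← map_pow, hg, map_one]
  have h2 : (φ.symm k) ^ r = 1 := by rw [← map_pow, hk, map_one]
  have h3 := h _ _ h1 h2
  rw [← map_mul, ← map_pow] at h3
  have h4 := congrArg φ h3
  rw [MulEquiv.apply_symm_apply, map_one] at h4
  exact h4

/-! ### The affine group of a field -/

/-- The affine group `x ↦ u * x + b` of a field. -/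
@[ext] structure Aff (K : Type*) [Field K] where
  /-- translation part -/
  b : K
  /-- linear part -/
  u : Kˣ

namespace Aff

variable {K : Type*} [Field K]

instance instMulAff : Mul (Aff K) := ⟨fun x y => ⟨x.b + (x.u : K) * y.b, x.u * y.u⟩⟩
instance instOneAff : One (Aff K) := ⟨⟨0, 1⟩⟩
instance instInvAff : Inv (Aff K) := ⟨fun x => ⟨-(((x.u⁻¹ : Kˣ) : K) * x.b), x.u⁻¹⟩⟩

instance instGroupAff : Group (Aff K) := Group.ofLeftAxioms
  (by
    intro a b c
    refine Aff.ext ?_ ?_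
    · show (a.b + (a.u : K) * b.b) + ((a.u * b.u : Kˣ) : K) * c.b =
        a.b + (a.u : K) * (b.b + (b.u : K) * c.b)
      rw [Units.val_mul]; ring
    · show a.u * b.u * c.u = a.u * (b.u * c.u)
      rw [mul_assoc])
  (by
    intro a
    refine Aff.ext ?_ ?_
    · show (0 : K) + ((1 : Kˣ) : K) * a.b = a.b
      rw [Units.val_one]; ring
    · show (1 : Kˣ) * a.u = a.u
      rw [one_mul])
  (by
    intro a
    refine Aff.ext ?_ ?_
    · show -(((a.u⁻¹ : Kˣ) : K) * a.b) + ((a.u⁻¹ : Kˣ) : K) * a.b = 0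
      ring
    · show a.u⁻¹ * a.u = 1
      rw [inv_mul_cancel])

theorem mul_b (x y : Aff K) : (x * y).b = x.b + (x.u : K) * y.b := rfl
theorem mul_u (x y : Aff K) : (x * y).u = x.u * y.u := rfl
theorem one_b : (1 : Aff K).b = 0 := rfl
theorem one_u : (1 : Aff K).u = 1 := rfl
theorem inv_u (x : Aff K) : (x⁻¹).u = x.u⁻¹ := rfl

theorem pow_u (x : Aff K) (n : ℕ) : (x ^ n).u = x.u ^ n := by
  induction n with
  | zero => rw [pow_zero, pow_zero]; rfl
  | succ n ih => rw [pow_succ, mul_u, ih, pow_succ]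

theorem pow_b (x : Aff K) (n : ℕ) :
    (x ^ n).b = x.b * ∑ i ∈ Finset.range n, (x.u : K) ^ i := by
  induction n with
  | zero => rw [pow_zero, Finset.range_zero, Finset.sum_empty, mul_zero]; rfl
  | succ n ih =>
    rw [pow_succ, mul_b, ih, pow_u, Finset.sum_range_succ, Units.val_pow_eq_pow_val]
    ring

instance instFiniteAff [Finite K] : Finite (Aff K) :=
  Finite.of_injective (fun x : Aff K => (x.b, x.u)) (by
    intro x y h
    simp only [Prod.mk.injEq] at h
    exact Aff.ext h.1 h.2)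

/-- The subgroup of affine maps with linear part a power of `ζ`. -/
def sub (ζ : Kˣ) : Subgroup (Aff K) where
  carrier := {x | x.u ∈ Subgroup.zpowers ζ}
  mul_mem' := fun {a b} ha hb => by
    show (a * b).u ∈ Subgroup.zpowers ζ
    rw [mul_u]; exact Subgroup.mul_mem _ ha hb
  one_mem' := by
    show (1 : Aff K).u ∈ Subgroup.zpowers ζ
    rw [one_u]; exact Subgroup.one_mem _
  inv_mem' := fun {a} ha => by
    show (a⁻¹).u ∈ Subgroup.zpowers ζ
    rw [inv_u]; exact Subgroup.inv_mem _ ha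

theorem mem_sub (ζ : Kˣ) (x : Aff K) : x ∈ sub ζ ↔ x.u ∈ Subgroup.zpowers ζ := Iff.rfl

theorem pow_p_of_u_one (p : ℕ) [CharP K p] (x : Aff K) (hx : x.u = 1) : x ^ p = 1 := by
  refine Aff.ext ?_ ?_
  · rw [pow_b, hx, one_b, Units.val_one]
    simp
  · rw [pow_u, hx, one_pow]; rfl

theorem pow_q_of_u_ne (q : ℕ) (x : Aff K) (hx1 : x.u ≠ 1) (hxq : x.u ^ q = 1) : x ^ q = 1 := by
  refine Aff.ext ?_ ?_
  · rw [pow_b]
    have h1 : (∑ i ∈ Finset.range q, (x.u : K) ^ i) * ((x.u : K) - 1) = (x.u : K) ^ q - 1 :=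
      geom_sum_mul _ _
    have h2 : ((x.u : K)) ^ q = 1 := by rw [← Units.val_pow_eq_pow_val, hxq, Units.val_one]
    rw [h2, sub_self] at h1
    have h3 : (x.u : K) - 1 ≠ 0 := by
      intro h
      apply hx1
      ext
      rw [Units.val_one]
      exact sub_eq_zero.mp h
    rcases mul_eq_zero.mp h1 with h | h
    · rw [h, mul_zero]; rfl
    · exact absurd h h3
  · rw [pow_u, hxq]; rfl

section base

variable (p q : ℕ) [hp : Fact p.Prime] [hq : Fact q.Prime] (hpq : p ≠ q) [CharP K p]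
  (ζ : Kˣ) (hζ : orderOf ζ = q)

include hpq hζ

theorem base_cases (x : Aff K) (hx : x ∈ sub ζ) :
    (x.u = 1 ∧ x ^ p = 1) ∨ (x.u ≠ 1 ∧ x ^ q = 1) := by
  by_cases h : x.u = 1
  · exact Or.inl ⟨h, pow_p_of_u_one p x h⟩
  · refine Or.inr ⟨h, pow_q_of_u_ne q x h ?_⟩
    have h1 := orderOf_dvd_of_mem_zpowers hx
    rw [hζ] at h1
    exact orderOf_dvd_iff_pow_eq_one.mp h1

theorem base_orders (x : ↥(sub ζ)) : orderOf x = 1 ∨ orderOf x = p ∨ orderOf x = q := by
  rw [← Subgroup.orderOf_coe]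
  rcases base_cases p q hpq ζ hζ (x : Aff K) x.2 with ⟨-, h⟩ | ⟨-, h⟩
  · rcases (Nat.dvd_prime hp.out).mp (orderOf_dvd_of_pow_eq_one h) with h1 | h1
    · exact Or.inl h1
    · exact Or.inr (Or.inl h1)
  · rcases (Nat.dvd_prime hq.out).mp (orderOf_dvd_of_pow_eq_one h) with h1 | h1
    · exact Or.inl h1
    · exact Or.inr (Or.inr h1)

theorem base_p : ∃ x : ↥(sub ζ), orderOf x = p := by
  have hmem : (⟨1, 1⟩ : Aff K) ∈ sub ζ := by
    show (1 : Kˣ) ∈ Subgroup.zpowers ζ
    exact Subgroup.one_mem _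
  refine ⟨⟨⟨1, 1⟩, hmem⟩, ?_⟩
  rw [← Subgroup.orderOf_coe]
  apply orderOf_eq_prime
  · exact pow_p_of_u_one p _ rfl
  · intro h
    have := congrArg Aff.b h
    exact one_ne_zero this

theorem base_q : ∃ x : ↥(sub ζ), orderOf x = q := by
  have hmem : (⟨0, ζ⟩ : Aff K) ∈ sub ζ := Subgroup.mem_zpowers ζ
  have hζ1 : ζ ≠ 1 := by
    intro h
    rw [h, orderOf_one] at hζ
    exact hq.out.one_lt.ne hζ
  refine ⟨⟨⟨0, ζ⟩, hmem⟩, ?_⟩
  rw [← Subgroup.orderOf_coe]
  apply orderOf_eq_prime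
  · exact pow_q_of_u_ne q _ hζ1 (by rw [← hζ]; exact pow_orderOf_eq_one ζ)
  · intro h
    exact hζ1 (congrArg Aff.u h)

theorem base_range : Set.range (orderOf : ↥(sub ζ) → ℕ) = Om p q := by
  ext m
  constructor
  · rintro ⟨x, rfl⟩
    exact base_orders p q hpq ζ hζ x
  · rintro (h | h | h)
    · rw [h]; exact ⟨1, orderOf_one⟩
    · rw [h]; exact base_p p q hpq ζ hζ
    · rw [h]; exact base_q p q hpq ζ hζ

theorem base_invP : InvP p ↥(sub ζ) := by
  have hu : ∀ g : ↥(sub ζ), g ^ p = 1 → (g : Aff K).u = 1 := by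
    intro g hg
    rcases base_cases p q hpq ζ hζ (g : Aff K) g.2 with ⟨h, -⟩ | ⟨h, hq'⟩
    · exact h
    · exfalso
      have hg' : (g : Aff K) ^ p = 1 := by
        have := congrArg Subtype.val hg
        exact this
      have h1 : orderOf (g : Aff K) ∣ p := orderOf_dvd_of_pow_eq_one hg'
      have h2 : orderOf (g : Aff K) ∣ q := orderOf_dvd_of_pow_eq_one hq'
      have h3 : orderOf (g : Aff K) ∣ Nat.gcd p q := Nat.dvd_gcd h1 h2
      have h4 : Nat.gcd p q = 1 := (Nat.coprime_primes hp.out hq.out).mpr hpq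
      rw [h4, Nat.dvd_one, orderOf_eq_one_iff] at h3
      apply h
      rw [h3]; rfl
  intro g h hg hh
  apply Subtype.ext
  show ((g : Aff K) * (h : Aff K)) ^ p = 1
  apply pow_p_of_u_one
  rw [mul_u, hu g hg, hu h hh, one_mul]

end base

end Aff

/-- A finite group with spectrum `{1, p, q}` in which the elements of `p`-th power one form a
subgroup. -/
theorem exists_base (p q : ℕ) (hp : p.Prime) (hq : q.Prime) (hpq : p ≠ q) :
    ∃ (X : Type) (_ : Group X) (_ : Finite X),
      Set.range (orderOf : X → ℕ) = Om p q ∧ InvP p X := by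
  haveI : Fact p.Prime := ⟨hp⟩
  haveI : Fact q.Prime := ⟨hq⟩
  have hq1 : q - 1 ≠ 0 := by have := hq.two_le; omega
  have hcard : Nat.card (GaloisField p (q - 1))ˣ = p ^ (q - 1) - 1 := by
    rw [Nat.card_units, GaloisField.card p (q - 1) hq1]
  have hdvd : q ∣ Nat.card (GaloisField p (q - 1))ˣ := by
    rw [hcard]
    have h1 : p ^ Nat.totient q ≡ 1 [MOD q] :=
      Nat.ModEq.pow_totient ((Nat.coprime_primes hp hq).mpr hpq)
    rw [Nat.totient_prime hq] at h1
    exact (Nat.modEq_iff_dvd' (Nat.one_le_pow _ _ hp.pos)).mp h1.symm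
  obtain ⟨ζ, hζ⟩ := exists_prime_orderOf_dvd_card' (G := (GaloisField p (q - 1))ˣ) q hdvd
  exact ⟨↥(Aff.sub ζ), inferInstance, inferInstance, Aff.base_range p q hpq ζ hζ,
    Aff.base_invP p q hpq ζ hζ⟩

/-! ### Sections and minimal sections -/

/-- `InvP` passes to sections of a group with spectrum `{1, p, q}`. -/
theorem invP_section (p q : ℕ) (hp : p.Prime) (hq : q.Prime) (hpq : p ≠ q) (X : Type*) [Group X]
    (hX : Set.range (orderOf : X → ℕ) = Om p q) (hI : InvP p X) (H : Subgroup X)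
    (N : Subgroup ↥H) [N.Normal] : InvP p (↥H ⧸ N) := by
  have hlift : ∀ c : ↥H ⧸ N, c ^ p = 1 → ∃ h : ↥H, (h : X) ^ p = 1 ∧ (h : ↥H ⧸ N) = c := by
    intro c hc
    obtain ⟨h, rfl⟩ := QuotientGroup.mk_surjective c
    have ho : orderOf (h : X) ∈ Om p q := by rw [← hX]; exact ⟨_, rfl⟩
    rcases ho with ho | ho | ho
    · refine ⟨h, ?_, rfl⟩
      rw [orderOf_eq_one_iff.mp ho, one_pow]
    · refine ⟨h, ?_, rfl⟩
      rw [← ho]; exact pow_orderOf_eq_one _
    · refine ⟨1, by rw [Subgroup.coe_one, one_pow], ?_⟩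
      have h1 : ((h : ↥H ⧸ N)) ^ q = 1 := by
        rw [← QuotientGroup.mk_pow]
        have : h ^ q = 1 := by
          apply Subtype.ext
          rw [Subgroup.coe_pow, ← ho]
          exact pow_orderOf_eq_one _
        rw [this]; rfl
      have h2 : orderOf (h : ↥H ⧸ N) ∣ Nat.gcd p q :=
        Nat.dvd_gcd (orderOf_dvd_of_pow_eq_one hc) (orderOf_dvd_of_pow_eq_one h1)
      have h4 : Nat.gcd p q = 1 := (Nat.coprime_primes hp hq).mpr hpq
      rw [h4, Nat.dvd_one, orderOf_eq_one_iff] at h2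
      rw [h2]; rfl
  intro c d hc hd
  obtain ⟨h, hh, rfl⟩ := hlift c hc
  obtain ⟨k, hk, rfl⟩ := hlift d hd
  have h1 := hI (h : X) (k : X) hh hk
  have h2 : (h * k) ^ p = 1 := by
    apply Subtype.ext
    rw [Subgroup.coe_pow, Subgroup.coe_mul]
    exact h1
  rw [← QuotientGroup.mk_mul, ← QuotientGroup.mk_pow, h2]
  rfl

theorem card_section_lt {X : Type*} [Group X] [Finite X] (H : Subgroup X) (N : Subgroup ↥H)
    (hne : H ≠ ⊤ ∨ N ≠ ⊥) : Nat.card (↥H ⧸ N) < Nat.card X := by
  have h1 : Nat.card ↥H = Nat.card (↥H ⧸ N) * Nat.card ↥N :=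
    Subgroup.card_eq_card_quotient_mul_card_subgroup N
  have h2 : Nat.card ↥H ≤ Nat.card X := Subgroup.card_le_card_group H
  have h3 : 0 < Nat.card ↥N := Nat.card_pos
  have h4 : 0 < Nat.card (↥H ⧸ N) := Nat.card_pos
  rcases hne with h | h
  · have h5 : Nat.card ↥H ≠ Nat.card X := fun h6 => h (Subgroup.card_eq_iff_eq_top H |>.mp h6)
    have h6 : Nat.card ↥H < Nat.card X := lt_of_le_of_ne h2 h5
    nlinarith
  · have h5 : 1 < Nat.card ↥N := (Subgroup.one_lt_card_iff_ne_bot N).mpr h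
    nlinarith

/-- A critical group for `{1, p, q}` in which the elements of `p`-th power one form a
subgroup. -/
theorem exists_crit (p q : ℕ) (hp : p.Prime) (hq : q.Prime) (hpq : p ≠ q) :
    ∃ (Y : Type) (_ : Group Y) (_ : Fintype Y),
      Set.range (orderOf : Y → ℕ) = Om p q ∧ InvP p Y ∧ Crit Y (Om p q) := by
  have key : ∀ n : ℕ, ∀ (X : Type) [Group X] [Finite X], Nat.card X = n →
      Set.range (orderOf : X → ℕ) = Om p q → InvP p X →
      ∃ (Y : Type) (_ : Group Y) (_ : Fintype Y),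
        Set.range (orderOf : Y → ℕ) = Om p q ∧ InvP p Y ∧ Crit Y (Om p q) := by
    intro n
    induction n using Nat.strong_induction_on with
    | _ n ih =>
      intro X _ _ hn hX hI
      by_cases hc : Crit X (Om p q)
      · exact ⟨X, inferInstance, Fintype.ofFinite X, hX, hI, hc⟩
      · unfold Crit at hc
        push Not at hc
        obtain ⟨H, N, hN, hne, hr⟩ := hc
        have hlt := card_section_lt H N hne
        rw [hn] at hlt
        exact ih _ hlt (↥H ⧸ N) rfl hr (invP_section p q hp hq hpq X hX hI H N)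
  obtain ⟨X, _, _, hX, hI⟩ := exists_base p q hp hq hpq
  exact key _ X rfl hX hI

/-- In a group with spectrum `{1, p, q}` the elements of `p`-th power one and the elements of
`q`-th power one cannot both be closed under multiplication. -/
theorem not_invP (p q : ℕ) (hp : p.Prime) (hq : q.Prime) (hpq : p ≠ q) (Y : Type*) [Group Y]
    (hY : Set.range (orderOf : Y → ℕ) = Om p q) (hI : InvP p Y) : ¬ InvP q Y := by
  intro hJ
  have hpm : p ∈ Set.range (orderOf : Y → ℕ) := by rw [hY]; exact Or.inr (Or.inl rfl)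
  have hqm : q ∈ Set.range (orderOf : Y → ℕ) := by rw [hY]; exact Or.inr (Or.inr rfl)
  obtain ⟨g, hg⟩ := hpm
  obtain ⟨h, hh⟩ := hqm
  have hgp : g ^ p = 1 := by rw [← hg]; exact pow_orderOf_eq_one g
  have hhq : h ^ q = 1 := by rw [← hh]; exact pow_orderOf_eq_one h
  have e1 : (g * h * g⁻¹ * h⁻¹) ^ q = 1 := by
    apply hJ
    · rw [conj_pow, hhq, mul_one, mul_inv_cancel]
    · rw [inv_pow, hhq, inv_one]
  have e2 : (g * h * g⁻¹ * h⁻¹) ^ p = 1 := by
    have : g * h * g⁻¹ * h⁻¹ = g * (h * g⁻¹ * h⁻¹) := by group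
    rw [this]
    apply hI _ _ hgp
    rw [conj_pow, inv_pow, hgp, inv_one, mul_one, mul_inv_cancel]
  have e3 : orderOf (g * h * g⁻¹ * h⁻¹) ∣ Nat.gcd p q :=
    Nat.dvd_gcd (orderOf_dvd_of_pow_eq_one e2) (orderOf_dvd_of_pow_eq_one e1)
  have e4 : Nat.gcd p q = 1 := (Nat.coprime_primes hp hq).mpr hpq
  rw [e4, Nat.dvd_one, orderOf_eq_one_iff] at e3
  have hcomm : Commute g h := by
    show g * h = h * g
    calc g * h = (g * h * g⁻¹ * h⁻¹) * (h * g) := by group
      _ = h * g := by rw [e3, one_mul]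
  have ho := hcomm.orderOf_mul_eq_mul_orderOf_of_coprime (by
    rw [hg, hh]; exact (Nat.coprime_primes hp hq).mpr hpq)
  rw [hg, hh] at ho
  have hmem : p * q ∈ Om p q := by rw [← hY, ← ho]; exact ⟨_, rfl⟩
  have hp2 := hp.two_le
  have hq2 := hq.two_le
  rcases hmem with h1 | h1 | h1
  · nlinarith
  · nlinarith
  · nlinarith

/-! ### Products of groups of pairwise coprime orders -/

section Prod

variable {ι : Type} [Fintype ι] [DecidableEq ι] (Z : ι → Type) [∀ j, Group (Z j)]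
  [∀ j, Finite (Z j)]

theorem pi_orderOf (hcop : ∀ j k, j ≠ k → Nat.Coprime (Nat.card (Z j)) (Nat.card (Z k)))
    (g : ∀ j, Z j) : orderOf g = ∏ j, orderOf (g j) := by
  apply Nat.dvd_antisymm
  · rw [orderOf_dvd_iff_pow_eq_one]
    funext j
    rw [Pi.pow_apply, Pi.one_apply]
    exact orderOf_dvd_iff_pow_eq_one.mp (Finset.dvd_prod_of_mem _ (Finset.mem_univ j))
  · apply Finset.prod_dvd_of_isRelPrime
    · intro j _ k _ hjk
      show IsRelPrime (orderOf (g j)) (orderOf (g k))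
      rw [← Nat.coprime_iff_isRelPrime]
      exact Nat.Coprime.coprime_dvd_left (orderOf_dvd_natCard _)
        (Nat.Coprime.coprime_dvd_right (orderOf_dvd_natCard _) (hcop j k hjk))
    · intro j _
      rw [orderOf_dvd_iff_pow_eq_one, ← Pi.pow_apply, pow_orderOf_eq_one]
      rfl

theorem pi_range (S : ι → Set ℕ) (hS : ∀ j, Set.range (orderOf : Z j → ℕ) = S j)
    (hcop : ∀ j k, j ≠ k → Nat.Coprime (Nat.card (Z j)) (Nat.card (Z k))) :
    Set.range (orderOf : (∀ j, Z j) → ℕ) =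
      {m | ∃ c : ι → ℕ, (∀ j, c j ∈ S j) ∧ m = ∏ j, c j} := by
  ext m
  constructor
  · rintro ⟨g, rfl⟩
    exact ⟨fun j => orderOf (g j), fun j => by rw [← hS j]; exact ⟨g j, rfl⟩,
      pi_orderOf Z hcop g⟩
  · rintro ⟨c, hc, rfl⟩
    have hex : ∀ j, ∃ y : Z j, orderOf y = c j := fun j => by
      have := hc j
      rw [← hS j] at this
      exact this
    choose g hg using hex
    exact ⟨g, by rw [pi_orderOf Z hcop g]; exact Finset.prod_congr rfl (fun j _ => hg j)⟩

theorem pow_erase (j : ι) (g : ∀ k, Z k) :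
    g ^ (∏ k ∈ Finset.univ.erase j, Nat.card (Z k)) =
      Pi.mulSingle j ((g j) ^ (∏ k ∈ Finset.univ.erase j, Nat.card (Z k))) := by
  funext k
  by_cases hk : k = j
  · subst hk
    rw [Pi.pow_apply, Pi.mulSingle_eq_same]
  · rw [Pi.pow_apply, Pi.mulSingle_eq_of_ne hk]
    have h1 : Nat.card (Z k) ∣ ∏ k ∈ Finset.univ.erase j, Nat.card (Z k) :=
      Finset.dvd_prod_of_mem _ (Finset.mem_erase.mpr ⟨hk, Finset.mem_univ k⟩)
    obtain ⟨d, hd⟩ := h1
    rw [hd, pow_mul, pow_card_eq_one', one_pow]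

theorem cop_erase (hcop : ∀ j k, j ≠ k → Nat.Coprime (Nat.card (Z j)) (Nat.card (Z k))) (j : ι)
    (r : ℕ) (hr : r ∣ Nat.card (Z j)) :
    Nat.Coprime r (∏ k ∈ Finset.univ.erase j, Nat.card (Z k)) := by
  apply Nat.Coprime.prod_right
  intro k hk
  exact Nat.Coprime.coprime_dvd_left hr (hcop j k (Finset.ne_of_mem_erase hk).symm)

/-- A product of critical groups of pairwise coprime orders is critical for the set of
products of orders. -/
theorem pi_crit (S : ι → Set ℕ) (hS : ∀ j, Set.range (orderOf : Z j → ℕ) = S j)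
    (hcop : ∀ j k, j ≠ k → Nat.Coprime (Nat.card (Z j)) (Nat.card (Z k)))
    (hcrit : ∀ j, Crit (Z j) (S j)) :
    Crit (∀ j, Z j) {m | ∃ c : ι → ℕ, (∀ j, c j ∈ S j) ∧ m = ∏ j, c j} := by
  intro H N hN hne hrange
  have h1S : ∀ k, 1 ∈ S k := fun k => by rw [← hS k]; exact ⟨1, orderOf_one⟩
  have hSdvd : ∀ k, ∀ r ∈ S k, r ∣ Nat.card (Z k) := by
    intro k r hr
    rw [← hS k] at hr
    obtain ⟨z, rfl⟩ := hr
    exact orderOf_dvd_natCard z
  have key : ∀ j, (∀ y : Z j, Pi.mulSingle j y ∈ H) ∧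
      (∀ (y : Z j) (hy : Pi.mulSingle j y ∈ H), (⟨Pi.mulSingle j y, hy⟩ : ↥H) ∈ N → y = 1) := by
    intro j
    obtain ⟨m, hm⟩ : ∃ m : ℕ, m = ∏ k ∈ Finset.univ.erase j, Nat.card (Z k) := ⟨_, rfl⟩
    obtain ⟨Hj, hHj⟩ : ∃ Hj : Subgroup (Z j), Hj = H.comap (MonoidHom.mulSingle Z j) := ⟨_, rfl⟩
    have hHjle : Hj ≤ H.comap (MonoidHom.mulSingle Z j) := le_of_eq hHj
    have hmemH : ∀ y : ↥Hj, Pi.mulSingle j (y : Z j) ∈ H := fun y => hHjle y.2
    let fj : ↥Hj →* ↥H :=
      { toFun := fun y => ⟨Pi.mulSingle j (y : Z j), hmemH y⟩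
        map_one' := by
          apply Subtype.ext
          show Pi.mulSingle j ((1 : ↥Hj) : Z j) = 1
          rw [Subgroup.coe_one, Pi.mulSingle_one]
        map_mul' := by
          intro a b
          apply Subtype.ext
          show Pi.mulSingle j ((a * b : ↥Hj) : Z j) =
            Pi.mulSingle j (a : Z j) * Pi.mulSingle j (b : Z j)
          rw [Subgroup.coe_mul, Pi.mulSingle_mul] }
    obtain ⟨Nj, hNj⟩ : ∃ Nj : Subgroup ↥Hj, Nj = N.comap fj := ⟨_, rfl⟩
    haveI hNjn : Nj.Normal := by rw [hNj]; infer_instance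
    let ψ : ↥Hj ⧸ Nj →* ↥H ⧸ N := QuotientGroup.map Nj N fj (by rw [hNj])
    have hψmk : ∀ y : ↥Hj, ψ (y : ↥Hj ⧸ Nj) = ((fj y : ↥H) : ↥H ⧸ N) := fun y => rfl
    have hψ : Function.Injective ψ := by
      rw [injective_iff_map_eq_one]
      intro c hc
      obtain ⟨y, rfl⟩ := QuotientGroup.mk_surjective c
      rw [hψmk, QuotientGroup.eq_one_iff] at hc
      rw [QuotientGroup.eq_one_iff, hNj]
      exact hc
    have hord : ∀ c : ↥Hj ⧸ Nj, orderOf (ψ c) = orderOf c := fun c => orderOf_injective ψ hψ c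
    have hsec : Set.range (orderOf : (↥Hj ⧸ Nj) → ℕ) = S j := by
      ext r
      constructor
      · rintro ⟨c, rfl⟩
        have h1 : orderOf (ψ c) ∈ Set.range (orderOf : (↥H ⧸ N) → ℕ) := ⟨_, rfl⟩
        rw [hrange] at h1
        obtain ⟨cc, hcc, hprod⟩ := h1
        have hdvd : orderOf c ∣ Nat.card (Z j) := by
          obtain ⟨y, rfl⟩ := QuotientGroup.mk_surjective c
          have h2 : orderOf (y : ↥Hj ⧸ Nj) ∣ orderOf y := by
            apply orderOf_dvd_of_pow_eq_one
            rw [← QuotientGroup.mk_pow, pow_orderOf_eq_one]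
            rfl
          have h3 : orderOf y ∣ Nat.card (Z j) := by
            rw [← Subgroup.orderOf_coe]
            exact orderOf_dvd_natCard _
          exact h2.trans h3
        rw [hord c] at hprod
        have hone : ∀ k, k ≠ j → cc k = 1 := by
          intro k hk
          have h4 : cc k ∣ Nat.card (Z j) := by
            have : cc k ∣ ∏ k, cc k := Finset.dvd_prod_of_mem _ (Finset.mem_univ k)
            rw [← hprod] at this
            exact this.trans hdvd
          have h5 : cc k ∣ Nat.card (Z k) := hSdvd k _ (hcc k)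
          exact Nat.Coprime.eq_one_of_dvd (Nat.Coprime.coprime_dvd_left h5 (hcop k j hk)) h4
        rw [hprod, Fintype.prod_eq_single j hone]
        exact hcc j
      · intro hr
        have hrΩ : r ∈ Set.range (orderOf : (↥H ⧸ N) → ℕ) := by
          rw [hrange]
          refine ⟨Function.update (fun _ => 1) j r, ?_, ?_⟩
          · intro k
            by_cases hk : k = j
            · subst hk
              rw [Function.update_self]
              exact hr
            · rw [Function.update_of_ne hk]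
              exact h1S k
          · rw [Fintype.prod_eq_single j (fun k hk => by rw [Function.update_of_ne hk]),
              Function.update_self]
        obtain ⟨C, hC⟩ := hrΩ
        obtain ⟨h, rfl⟩ := QuotientGroup.mk_surjective C
        have hcopr : Nat.Coprime r m := by
          rw [hm]; exact cop_erase Z hcop j r (hSdvd j r hr)
        have hpow : ((h ^ m : ↥H) : ∀ k, Z k) = Pi.mulSingle j (((h : ∀ k, Z k) j) ^ m) := by
          rw [Subgroup.coe_pow, hm]; exact pow_erase Z j _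
        have hy : ((h : ∀ k, Z k) j) ^ m ∈ Hj := by
          rw [hHj, Subgroup.mem_comap]
          show Pi.mulSingle j (((h : ∀ k, Z k) j) ^ m) ∈ H
          rw [← hpow]; exact (h ^ m).2
        refine ⟨((⟨_, hy⟩ : ↥Hj) : ↥Hj ⧸ Nj), ?_⟩
        rw [← hord]
        have h1 : ψ ((⟨_, hy⟩ : ↥Hj) : ↥Hj ⧸ Nj) = ((h ^ m : ↥H) : ↥H ⧸ N) := by
          have : fj ⟨_, hy⟩ = h ^ m := Subtype.ext hpow.symm
          rw [hψmk, this]
        rw [h1, QuotientGroup.mk_pow]
        rw [Nat.Coprime.orderOf_pow (by rw [hC]; exact hcopr), hC]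
    have hcr := hcrit j Hj Nj
    have hboth : Hj = ⊤ ∧ Nj = ⊥ := by
      by_contra hcon
      apply hcr ?_ hsec
      by_contra h2
      push Not at h2
      exact hcon h2
    constructor
    · intro y
      have : y ∈ Hj := by rw [hboth.1]; exact Subgroup.mem_top y
      rw [hHj] at this
      exact this
    · intro y hy hyN
      have hyH : y ∈ Hj := by rw [hboth.1]; exact Subgroup.mem_top y
      have : (⟨y, hyH⟩ : ↥Hj) ∈ Nj := by
        rw [hNj, Subgroup.mem_comap]
        exact hyN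
      rw [hboth.2, Subgroup.mem_bot] at this
      exact congrArg Subtype.val this
  have hH : H = ⊤ := by
    rw [Subgroup.eq_top_iff']
    intro g
    rw [← Finset.noncommProd_mulSingle g]
    apply Subgroup.noncommProd_mem
    intro j _
    exact (key j).1 (g j)
  have hNb : N = ⊥ := by
    rw [Subgroup.eq_bot_iff_forall]
    intro n hn
    by_contra hn1
    have hn1' : (n : ∀ k, Z k) ≠ 1 := fun h => hn1 (Subtype.ext h)
    obtain ⟨j, hj⟩ := Function.ne_iff.mp hn1'
    obtain ⟨m, hm⟩ : ∃ m : ℕ, m = ∏ k ∈ Finset.univ.erase j, Nat.card (Z k) := ⟨_, rfl⟩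
    have hpow : ((n ^ m : ↥H) : ∀ k, Z k) = Pi.mulSingle j (((n : ∀ k, Z k) j) ^ m) := by
      rw [Subgroup.coe_pow, hm]; exact pow_erase Z j _
    have hy : Pi.mulSingle j (((n : ∀ k, Z k) j) ^ m) ∈ H := by
      rw [← hpow]; exact (n ^ m).2
    have hyN : (⟨Pi.mulSingle j (((n : ∀ k, Z k) j) ^ m), hy⟩ : ↥H) ∈ N := by
      have : (⟨Pi.mulSingle j (((n : ∀ k, Z k) j) ^ m), hy⟩ : ↥H) = n ^ m :=
        Subtype.ext hpow.symm
      rw [this]; exact Subgroup.pow_mem _ hn m
    have h1 := (key j).2 _ hy hyN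
    have h2 : orderOf ((n : ∀ k, Z k) j) ∣ m := orderOf_dvd_of_pow_eq_one h1
    have h3 : Nat.Coprime (orderOf ((n : ∀ k, Z k) j)) m := by
      rw [hm]; exact cop_erase Z hcop j _ (orderOf_dvd_natCard _)
    have h4 := Nat.Coprime.eq_one_of_dvd h3 h2
    exact hj (orderOf_eq_one_iff.mp h4)
  rcases hne with h | h
  · exact h hH
  · exact h hNb

theorem pi_invP (j : ι) (r : ℕ) (hr : ∀ k, k ≠ j → Nat.Coprime r (Nat.card (Z k))) :
    InvP r (∀ k, Z k) ↔ InvP r (Z j) := by
  constructor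
  · intro h g k hg hk
    have h1 := h (Pi.mulSingle j g) (Pi.mulSingle j k)
      (by rw [← Pi.mulSingle_pow, hg, Pi.mulSingle_one])
      (by rw [← Pi.mulSingle_pow, hk, Pi.mulSingle_one])
    rw [← Pi.mulSingle_mul, ← Pi.mulSingle_pow] at h1
    have h2 := congrFun h1 j
    rw [Pi.mulSingle_eq_same] at h2
    exact h2
  · intro h g k hg hk
    have hone : ∀ (x : ∀ k, Z k), x ^ r = 1 → ∀ i, i ≠ j → x i = 1 := by
      intro x hx i hi
      have h1 : (x i) ^ r = 1 := congrFun hx i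
      have h2 : orderOf (x i) ∣ r := orderOf_dvd_of_pow_eq_one h1
      have h3 : orderOf (x i) ∣ Nat.card (Z i) := orderOf_dvd_natCard _
      have h4 := Nat.Coprime.eq_one_of_dvd (Nat.Coprime.coprime_dvd_left h3 (hr i hi).symm) h2
      exact orderOf_eq_one_iff.mp h4
    funext i
    by_cases hi : i = j
    · subst hi
      exact h (g i) (k i) (congrFun hg i) (congrFun hk i)
    · show (g i * k i) ^ r = 1
      rw [hone g hg i hi, hone k hk i hi, one_mul, one_pow]

end Prod

end Cfsg.Agent.Lib.Helper20.Critical
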