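import Mathlib

set_option autoImplicit false

namespace Cfsg.Agent.Lib.Helper20

open scoped BigOperators

/-- Burnside's lemma with `Nat.card`. -/
theorem burnside_natCard (H X : Type*) [Group H] [MulAction H X] [Fintype H] [Finite X] :
    ∑ h : H, Nat.card (MulAction.fixedBy X h) =
      Nat.card (MulAction.orbitRel.Quotient H X) * Fintype.card H := by
  classical
  have : Fintype X := Fintype.ofFinite X
  have : ∀ h : H, Fintype (MulAction.fixedBy X h) := fun h => Fintype.ofFinite _
  have : Fintype (MulAction.orbitRel.Quotient H X) := Fintype.ofFinite _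
  have := MulAction.sum_card_fixedBy_eq_card_orbits_mul_card_group H X
  simp only [Nat.card_eq_fintype_card]
  convert this

/-- The subgroup generated by the derangements. -/
def derSub (G Ω : Type*) [Group G] [MulAction G Ω] : Subgroup G :=
  Subgroup.closure {g : G | ∀ ω : Ω, g • ω ≠ ω}

theorem derSub_normal (G Ω : Type*) [Group G] [MulAction G Ω] : (derSub G Ω).Normal := by
  have h : derSub G Ω = Subgroup.normalClosure {g : G | ∀ ω : Ω, g • ω ≠ ω} := by
    unfold derSub Subgroup.normalClosure
    congr 1
    apply Set.Subset.antisymm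
    · exact Group.subset_conjugatesOfSet
    · intro x hx
      rw [Group.mem_conjugatesOfSet_iff] at hx
      obtain ⟨a, ha, hax⟩ := hx
      obtain ⟨c, rfl⟩ := isConj_iff.mp hax
      intro ω hω
      apply ha (c⁻¹ • ω)
      have : c • (a • c⁻¹ • ω) = c • c⁻¹ • ω := by
        rw [smul_inv_smul]
        simpa [mul_smul] using hω
      exact smul_left_cancel c this
  rw [h]
  exact Subgroup.normalClosure_normal

/-- A non-derangement has at least one fixed point. -/
theorem one_le_card_fixedBy_of_not_mem {G Ω : Type*} [Group G] [MulAction G Ω] [Finite Ω]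
    {g : G} (hg : g ∉ derSub G Ω) : 1 ≤ Nat.card (MulAction.fixedBy Ω g) := by
  have : ¬ ∀ ω : Ω, g • ω ≠ ω := fun h => hg (Subgroup.subset_closure h)
  push Not at this
  obtain ⟨ω, hω⟩ := this
  have : Nonempty (MulAction.fixedBy Ω g) := ⟨⟨ω, hω⟩⟩
  exact Nat.card_pos

/-- Key counting fact: for a transitive action on a nonempty finite set, the derangement
subgroup has exactly one orbit, and every element outside it has exactly one fixed point. -/
theorem derSub_key {G Ω : Type*} [Group G] [Finite G] [MulAction G Ω] [Finite Ω] [Nonempty Ω]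
    (htrans : MulAction.IsPretransitive G Ω) :
    Nat.card (MulAction.orbitRel.Quotient (derSub G Ω) Ω) = 1 ∧
      ∀ g : G, g ∉ derSub G Ω → Nat.card (MulAction.fixedBy Ω g) = 1 := by
  classical
  have : Fintype G := Fintype.ofFinite G
  set D := derSub G Ω with hD
  set fx : G → ℕ := fun g => Nat.card (MulAction.fixedBy Ω g) with hfx
  -- (1) Burnside for G
  have h1 : ∑ g : G, fx g = Fintype.card G := by
    have := burnside_natCard G Ω
    have hq : Nat.card (MulAction.orbitRel.Quotient G Ω) = 1 := by
      have : Subsingleton (MulAction.orbitRel.Quotient G Ω) :=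
        (MulAction.pretransitive_iff_subsingleton_quotient G Ω).mp htrans
      have : Nonempty (MulAction.orbitRel.Quotient G Ω) := ⟨Quotient.mk'' (Classical.arbitrary Ω)⟩
      exact Nat.card_unique
    rw [hq, one_mul] at this
    exact this
  -- (2) Burnside for D
  set k := Nat.card (MulAction.orbitRel.Quotient D Ω) with hk
  have hkpos : 1 ≤ k := by
    have : Nonempty (MulAction.orbitRel.Quotient D Ω) := ⟨Quotient.mk'' (Classical.arbitrary Ω)⟩
    exact Nat.card_pos
  have h2 : ∑ d : D, fx (d : G) = k * Fintype.card D := by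
    have := burnside_natCard D Ω
    exact this
  -- (3) split
  have h3 : ∑ g : G, fx g = ∑ g ∈ Finset.univ.filter (· ∈ D), fx g +
      ∑ g ∈ Finset.univ.filter (fun g => g ∉ D), fx g :=
    (Finset.sum_filter_add_sum_filter_not Finset.univ (· ∈ D) fx).symm
  have h4 : ∑ g ∈ Finset.univ.filter (· ∈ D), fx g = ∑ d : D, fx (d : G) := by
    rw [← Finset.sum_subtype (Finset.univ.filter (· ∈ D)) (p := (· ∈ D)) (by simp) fx]
  have h5 : (Finset.univ.filter (fun g : G => g ∉ D)).card ≤
      ∑ g ∈ Finset.univ.filter (fun g => g ∉ D), fx g := by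
    rw [Finset.card_eq_sum_ones]
    apply Finset.sum_le_sum
    intro g hg
    rw [Finset.mem_filter] at hg
    exact one_le_card_fixedBy_of_not_mem hg.2
  have h6 : (Finset.univ.filter (fun g : G => g ∉ D)).card + Fintype.card D = Fintype.card G := by
    have := Finset.card_filter_add_card_filter_not (s := (Finset.univ : Finset G)) (· ∈ D)
    rw [Finset.card_univ] at this
    rw [← this, add_comm]
    congr 1
    rw [Fintype.card_subtype]
  have hDpos : 0 < Fintype.card D := Fintype.card_pos
  have hk1 : k = 1 := by
    have : k * Fintype.card D + (Finset.univ.filter (fun g : G => g ∉ D)).card ≤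
        (Finset.univ.filter (fun g : G => g ∉ D)).card + Fintype.card D := by
      rw [h6, ← h1, h3, h4, h2]
      exact Nat.add_le_add_left h5 _
    have : k * Fintype.card D ≤ 1 * Fintype.card D := by linarith
    have := Nat.le_of_mul_le_mul_right this hDpos
    omega
  refine ⟨hk1, ?_⟩
  have h7 : ∑ g ∈ Finset.univ.filter (fun g => g ∉ D), fx g =
      ∑ g ∈ Finset.univ.filter (fun g : G => g ∉ D), 1 := by
    rw [← Finset.card_eq_sum_ones]
    rw [hk1, one_mul] at h2
    rw [h3, h4, h2] at h1
    omega
  have h8 := (Finset.sum_eq_sum_iff_of_le (s := Finset.univ.filter (fun g : G => g ∉ D))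
    (f := fun _ => 1) (g := fx) (by
      intro g hg
      rw [Finset.mem_filter] at hg
      exact one_le_card_fixedBy_of_not_mem hg.2)).mp h7.symm
  intro g hg
  exact (h8 g (by simp [hg])).symm

/-- Splitting a sum over a group along a subgroup outside of which the function is `1`. -/
theorem sum_split_subgroup {G : Type*} [Group G] [Fintype G] (D : Subgroup G) [Fintype D]
    (f : G → ℕ) (hf : ∀ g : G, g ∉ D → f g = 1) :
    ∑ g : G, f g + Fintype.card D = ∑ d : D, f (d : G) + Fintype.card G := by
  classical
  have h3 : ∑ g : G, f g = ∑ g ∈ Finset.univ.filter (· ∈ D), f g +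
      ∑ g ∈ Finset.univ.filter (fun g => g ∉ D), f g :=
    (Finset.sum_filter_add_sum_filter_not Finset.univ (· ∈ D) f).symm
  have h4 : ∑ g ∈ Finset.univ.filter (· ∈ D), f g = ∑ d : D, f (d : G) := by
    rw [← Finset.sum_subtype (Finset.univ.filter (· ∈ D)) (p := (· ∈ D)) (by simp) f]
  have h5 : ∑ g ∈ Finset.univ.filter (fun g => g ∉ D), f g =
      (Finset.univ.filter (fun g : G => g ∉ D)).card := by
    rw [Finset.card_eq_sum_ones]
    apply Finset.sum_congr rfl
    intro g hg
    rw [Finset.mem_filter] at hg
    exact hf g hg.2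
  have h6 : (Finset.univ.filter (fun g : G => g ∉ D)).card + Fintype.card D = Fintype.card G := by
    have := Finset.card_filter_add_card_filter_not (s := (Finset.univ : Finset G)) (· ∈ D)
    rw [Finset.card_univ] at this
    rw [← this, add_comm]
    congr 1
    rw [Fintype.card_subtype]
  rw [h3, h4, h5]
  omega

theorem card_fixedBy_prod {G Ω : Type*} [Group G] [MulAction G Ω] [Finite Ω] (g : G) :
    Nat.card (MulAction.fixedBy (Ω × Ω) g) = Nat.card (MulAction.fixedBy Ω g) ^ 2 := by
  rw [sq, ← Nat.card_prod]
  apply Nat.card_congr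
  refine ⟨fun x => (⟨x.1.1, congrArg Prod.fst x.2⟩, ⟨x.1.2, congrArg Prod.snd x.2⟩),
    fun y => ⟨(y.1.1, y.2.1), ?_⟩, ?_, ?_⟩
  · show g • (y.1.1, y.2.1) = (y.1.1, y.2.1)
    rw [Prod.smul_mk, y.1.2, y.2.2]
  · intro x; rfl
  · intro y; rfl

/-- The rank relation for the derangement subgroup. -/
theorem derSub_rank {G Ω : Type*} [Group G] [Finite G] [MulAction G Ω] [Finite Ω] [Nonempty Ω]
    (htrans : MulAction.IsPretransitive G Ω) :
    Nat.card (MulAction.orbitRel.Quotient (derSub G Ω) (Ω × Ω)) + (derSub G Ω).index =
      Nat.card (MulAction.orbitRel.Quotient G (Ω × Ω)) * (derSub G Ω).index + 1 := by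
  classical
  have : Fintype G := Fintype.ofFinite G
  obtain ⟨-, hone⟩ := derSub_key (G := G) (Ω := Ω) htrans
  set D := derSub G Ω with hD
  have hG := burnside_natCard G (Ω × Ω)
  have hDD := burnside_natCard D (Ω × Ω)
  have hsplit := sum_split_subgroup D (fun g => Nat.card (MulAction.fixedBy (Ω × Ω) g))
    (by
      intro g hg
      rw [card_fixedBy_prod, hone g hg, one_pow])
  have hidx : Fintype.card D * D.index = Fintype.card G := by
    have := Subgroup.card_mul_index D
    simpa [Nat.card_eq_fintype_card] using this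
  have hDpos : 0 < Fintype.card D := Fintype.card_pos
  have e1 : ∑ d : D, Nat.card (MulAction.fixedBy (Ω × Ω) (d : G)) =
      Nat.card (MulAction.orbitRel.Quotient D (Ω × Ω)) * Fintype.card D := hDD
  rw [hG, e1] at hsplit
  -- hsplit : rG * |G| + |D| = rD * |D| + |G|
  set rG := Nat.card (MulAction.orbitRel.Quotient G (Ω × Ω))
  set rD := Nat.card (MulAction.orbitRel.Quotient D (Ω × Ω))
  rw [← hidx] at hsplit
  have : (rD + D.index) * Fintype.card D = (rG * D.index + 1) * Fintype.card D := by
    nlinarith [hsplit]
  exact Nat.eq_of_mul_eq_mul_right hDpos this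

/-- If a finite group acts on a finite set fixing the point `α` and every other orbit has
size divisible by `q`, then `q` divides the number of points minus one. -/
theorem dvd_card_sub_one_of_orbits {H X : Type*} [Group H] [MulAction H X] [Finite X] (α : X)
    (hα : ∀ h : H, h • α = α) (q : ℕ)
    (hq : ∀ x : X, x ≠ α → q ∣ Nat.card (MulAction.orbit H x)) : q ∣ Nat.card X - 1 := by
  classical
  have := Fintype.ofFinite X
  rw [Nat.card_eq_fintype_card]
  have h1 : Fintype.card X = ∑ a : Quotient (MulAction.orbitRel H X),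
      Fintype.card {x // Quotient.mk'' x = a} := by
    rw [← Fintype.card_sigma]
    exact Fintype.card_congr
      (Equiv.sigmaFiberEquiv (@Quotient.mk'' _ (MulAction.orbitRel H X))).symm
  have key : ∀ x, Fintype.card
      {y // (Quotient.mk'' y : Quotient (MulAction.orbitRel H X)) = Quotient.mk'' x} =
        Nat.card (MulAction.orbit H x) := by
    intro x
    rw [← Nat.card_eq_fintype_card]
    apply Nat.card_congr
    exact Equiv.subtypeEquivRight (fun y => by rw [Quotient.eq'']; rfl)
  rw [h1, ← Finset.add_sum_erase _ _ (Finset.mem_univ (Quotient.mk'' α))]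
  rw [key α]
  have h2 : Nat.card (MulAction.orbit H α) = 1 := by
    have : MulAction.orbit H α = {α} := by
      ext y
      constructor
      · rintro ⟨h, rfl⟩
        exact hα h
      · rintro rfl
        exact MulAction.mem_orbit_self _
    rw [this]
    simp
  rw [h2, Nat.add_sub_cancel_left]
  apply Finset.dvd_sum
  intro a ha
  induction a using Quotient.inductionOn' with
  | h b =>
    rw [key b]
    apply hq
    rintro rfl
    simp at ha

theorem derSub_isPretransitive {G Ω : Type*} [Group G] [Finite G] [MulAction G Ω] [Finite Ω]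
    [Nonempty Ω] (htrans : MulAction.IsPretransitive G Ω) :
    MulAction.IsPretransitive (derSub G Ω) Ω := by
  obtain ⟨hk1, -⟩ := derSub_key (G := G) (Ω := Ω) htrans
  rw [MulAction.pretransitive_iff_subsingleton_quotient]
  exact (Nat.card_eq_one_iff_unique.mp hk1).1

theorem derSub_relIndex_stabilizer {G Ω : Type*} [Group G] [Finite G] [MulAction G Ω] [Finite Ω]
    (htrans : MulAction.IsPretransitive G Ω) (α : Ω) :
    (derSub G Ω).relIndex (MulAction.stabilizer G α) = (derSub G Ω).index := by
  have hne : Nonempty Ω := ⟨α⟩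
  have hDn : (derSub G Ω).Normal := derSub_normal G Ω
  have hDtrans := derSub_isPretransitive (G := G) (Ω := Ω) htrans
  have hsup : MulAction.stabilizer G α ⊔ derSub G Ω = ⊤ := by
    rw [eq_top_iff]
    intro g _
    obtain ⟨d, hd⟩ := MulAction.exists_smul_eq (derSub G Ω) α (g • α)
    have h1 : (d : G)⁻¹ * g ∈ MulAction.stabilizer G α := by
      rw [MulAction.mem_stabilizer_iff, mul_smul, ← hd]
      exact inv_smul_smul _ _
    have : g = (d : G) * ((d : G)⁻¹ * g) := by group
    rw [this]
    exact Subgroup.mul_mem _ (Subgroup.mem_sup_right d.2) (Subgroup.mem_sup_left h1)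
  rw [← Subgroup.relIndex_sup_right (H := MulAction.stabilizer G α) (K := derSub G Ω), hsup,
    Subgroup.relIndex_top_right]

/-- An element of a point stabilizer fixing a second point lies in the derangement subgroup. -/
theorem mem_derSub_of_two_fixed {G Ω : Type*} [Group G] [Finite G] [MulAction G Ω] [Finite Ω]
    (htrans : MulAction.IsPretransitive G Ω) {α x : Ω} (hx : x ≠ α) {g : G} (hα : g • α = α)
    (hgx : g • x = x) : g ∈ derSub G Ω := by
  have hne : Nonempty Ω := ⟨α⟩
  obtain ⟨-, hone⟩ := derSub_key (G := G) (Ω := Ω) htrans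
  by_contra hnot
  have h1 := hone g hnot
  rw [Nat.card_eq_one_iff_unique] at h1
  obtain ⟨hsub, -⟩ := h1
  have := @Subsingleton.elim _ hsub (⟨x, hgx⟩ : MulAction.fixedBy Ω g) ⟨α, hα⟩
  exact hx (congrArg Subtype.val this)

theorem derSub_index_dvd_card_orbit {G Ω : Type*} [Group G] [Finite G] [MulAction G Ω] [Finite Ω]
    (htrans : MulAction.IsPretransitive G Ω) {α x : Ω} (hx : x ≠ α) :
    (derSub G Ω).index ∣ Nat.card (MulAction.orbit (MulAction.stabilizer G α) x) := by
  have h1 : MulAction.stabilizer (MulAction.stabilizer G α) x ≤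
      (derSub G Ω).subgroupOf (MulAction.stabilizer G α) := by
    intro h hh
    rw [Subgroup.mem_subgroupOf]
    exact mem_derSub_of_two_fixed htrans hx h.2 (MulAction.mem_stabilizer_iff.mp hh)
  have h2 := Subgroup.index_dvd_of_le h1
  rw [MulAction.index_stabilizer, ← Nat.card_coe_set_eq] at h2
  rw [← derSub_relIndex_stabilizer htrans α]
  exact h2

/-- The index of the derangement subgroup divides the degree minus one. -/
theorem derSub_index_dvd {G Ω : Type*} [Group G] [Finite G] [MulAction G Ω] [Finite Ω]
    [Nonempty Ω] (htrans : MulAction.IsPretransitive G Ω) :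
    (derSub G Ω).index ∣ Nat.card Ω - 1 := by
  obtain ⟨α⟩ := ‹Nonempty Ω›
  exact dvd_card_sub_one_of_orbits (H := MulAction.stabilizer G α) α (fun h => h.2) _
    (fun x hx => derSub_index_dvd_card_orbit htrans hx)

end Cfsg.Agent.Lib.Helper20
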