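import Mathlib
import Cfsg.Agent.Lib.Lead.SimpleSylC
import Cfsg.Agent.S1003

/-!
Counting pairs of involutions by their product, and fixed points of inverting elements on
Sylow subgroups.
-/

set_option autoImplicit false
set_option linter.style.haveILetI false
set_option linter.unusedSectionVars false
set_option linter.unusedVariables false

namespace Cfsg.Agent.Lib.Helper20.InvPairs

open Cfsg.Agent.Lib.Lead.SimpleSyl Cfsg.Agent.Lib.Lead.SylowTwoP Cfsg.Agent.Lib.Helper8

universe u

variable {G : Type u} [Group G]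

/-- The elements of `T` inverting `g`. -/
def InvSet (T : Set G) (g : G) : Set G := {s | s ∈ T ∧ s * g * s⁻¹ = g⁻¹}

theorem mem_InvSet (T : Set G) (g s : G) : s ∈ InvSet T g ↔ s ∈ T ∧ s * g * s⁻¹ = g⁻¹ := Iff.rfl

/-- Pairs of elements of a set of involutions, counted by their product. -/
theorem pairs_le [Fintype G] (T : Set G) (hT : ∀ s ∈ T, s ^ 2 = 1) :
    T.ncard * T.ncard ≤ ∑ g : G, (InvSet T g).ncard := by
  classical
  obtain ⟨W, hW⟩ : ∃ W : Set (G × G), W = {q | q.2 ∈ InvSet T q.1} := ⟨_, rfl⟩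
  have h1 : T.ncard * T.ncard = (T ×ˢ T).ncard := (Set.ncard_prod).symm
  have h2 : (T ×ˢ T).ncard ≤ W.ncard := by
    apply Set.ncard_le_ncard_of_injOn (fun q : G × G => (q.1 * q.2, q.1))
    · rintro ⟨a, b⟩ ⟨ha, hb⟩
      have ha' : a ∈ T := ha
      have hb' : b ∈ T := hb
      rw [hW]
      refine ⟨ha', ?_⟩
      have ha2 : a * a = 1 := by rw [← pow_two]; exact hT a ha'
      have hb2 : b * b = 1 := by rw [← pow_two]; exact hT b hb'
      have hai : a⁻¹ = a := inv_eq_of_mul_eq_one_left ha2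
      have hbi : b⁻¹ = b := inv_eq_of_mul_eq_one_left hb2
      show a * (a * b) * a⁻¹ = (a * b)⁻¹
      rw [mul_inv_rev, hai, hbi, ← mul_assoc, ha2, one_mul]
    · rintro ⟨a, b⟩ _ ⟨a', b'⟩ _ heq
      simp only [Prod.mk.injEq] at heq
      obtain ⟨h1, h2⟩ := heq
      subst h2
      rw [mul_right_inj] at h1
      rw [h1]
  have h3 : W.ncard = ∑ g : G, (InvSet T g).ncard := by
    rw [Set.ncard_eq_toFinset_card']
    rw [Finset.card_eq_sum_card_fiberwise (f := Prod.fst) (t := Finset.univ)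
      (fun _ _ => Finset.mem_univ _)]
    apply Finset.sum_congr rfl
    intro g _
    rw [Set.ncard_eq_toFinset_card']
    apply Finset.card_bij (fun q _ => q.2)
    · intro q hq
      rw [Finset.mem_filter, Set.mem_toFinset, hW] at hq
      rw [Set.mem_toFinset]
      have := hq.1
      rw [← hq.2]
      exact this
    · intro q hq q' hq' heq
      rw [Finset.mem_filter] at hq hq'
      exact Prod.ext (hq.2.trans hq'.2.symm) heq
    · intro s hs
      rw [Set.mem_toFinset] at hs
      refine ⟨(g, s), ?_, rfl⟩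
      rw [Finset.mem_filter, Set.mem_toFinset, hW]
      exact ⟨hs, rfl⟩
  rw [h1, ← h3]
  exact h2

/-- At most `|C(g)|` elements invert `g`. -/
theorem invSet_le_centralizer [Finite G] (T : Set G) (g : G) :
    (InvSet T g).ncard ≤ Nat.card ↥(Subgroup.centralizer ({g} : Set G)) := by
  have h2 : Nat.card ↥(Subgroup.centralizer ({g} : Set G)) =
      ((Subgroup.centralizer ({g} : Set G) : Subgroup G) : Set G).ncard := rfl
  rcases Set.eq_empty_or_nonempty (InvSet T g) with h | ⟨s0, hs0⟩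
  · rw [h, Set.ncard_empty]; exact Nat.zero_le _
  rw [h2]
  apply Set.ncard_le_ncard_of_injOn (fun s : G => s0⁻¹ * s)
  · intro s hs
    show s0⁻¹ * s ∈ Subgroup.centralizer ({g} : Set G)
    rw [Subgroup.mem_centralizer_iff]
    intro h hh
    rw [Set.mem_singleton_iff] at hh
    subst hh
    have e1 := hs.2
    have e2 := hs0.2
    have e3 : s * h = h⁻¹ * s := by rw [← e1]; group
    have e4 : s0⁻¹ * h⁻¹ = h * s0⁻¹ := by rw [← e2]; group
    calc h * (s0⁻¹ * s) = (h * s0⁻¹) * s := by group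
      _ = (s0⁻¹ * h⁻¹) * s := by rw [e4]
      _ = s0⁻¹ * (h⁻¹ * s) := by group
      _ = s0⁻¹ * (s * h) := by rw [e3]
      _ = s0⁻¹ * s * h := by group
  · intro a _ b _ hab
    exact mul_left_cancel hab

/-- An element inverting a Sylow subgroup `P` of odd prime order fixes at most one point in
each orbit of `P` on a set of Sylow `q`-subgroups on which `P` acts freely. -/
theorem fx_free_bound [Finite G] (p q : ℕ) [Fact p.Prime] [Fact q.Prime] (hp2 : p ≠ 2)
    (P : Sylow p G) (hPc : Nat.card ↥(P : Subgroup G) = p) (t : G)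
    (hinv : ∀ y ∈ (P : Subgroup G), t * y * t⁻¹ = y⁻¹)
    (S : Set (Sylow q G)) (hS : ∀ x ∈ (P : Subgroup G), ∀ R ∈ S, x • R ∈ S)
    (hfree : ∀ x ∈ (P : Subgroup G), ∀ R ∈ S, x • R = R → x = 1) :
    {R | R ∈ S ∧ t • R = R}.ncard * p ≤ S.ncard := by
  have hp : p.Prime := Fact.out
  have h1 : Nat.card ↥(P : Subgroup G) = ((P : Subgroup G) : Set G).ncard := rfl
  have h2 : {R | R ∈ S ∧ t • R = R}.ncard * p =
      ({R | R ∈ S ∧ t • R = R} ×ˢ ((P : Subgroup G) : Set G)).ncard := by
    rw [Set.ncard_prod, ← h1, hPc]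
  rw [h2]
  apply Set.ncard_le_ncard_of_injOn (fun q : Sylow q G × G => q.2 • q.1)
  · rintro ⟨R, x⟩ ⟨hR, hx⟩
    exact hS x hx R hR.1
  · rintro ⟨R, x⟩ ⟨hR, hx⟩ ⟨R', y⟩ ⟨hR', hy⟩ heq
    have hxP : x ∈ (P : Subgroup G) := hx
    have hyP : y ∈ (P : Subgroup G) := hy
    have heq' : x • R = y • R' := heq
    obtain ⟨z, hz⟩ : ∃ z : G, z = y⁻¹ * x := ⟨_, rfl⟩
    have hzP : z ∈ (P : Subgroup G) := by
      rw [hz]; exact Subgroup.mul_mem _ (Subgroup.inv_mem _ hyP) hxP
    have hR'z : R' = z • R := by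
      rw [hz, mul_smul, heq', inv_smul_smul]
    have htR : t • R = R := hR.2
    have htR' : t • (z • R) = z • R := by rw [← hR'z]; exact hR'.2
    have e1 : (z⁻¹ * t * z) • R = R := by
      rw [mul_smul, mul_smul, htR', inv_smul_smul]
    have e2 : t⁻¹ • R = R := by rw [inv_smul_eq_iff, htR]
    have e3 : (z⁻¹ * t * z * t⁻¹) • R = R := by rw [mul_smul, e2, e1]
    have e4 : z⁻¹ * t * z * t⁻¹ = z⁻¹ * z⁻¹ := by
      calc z⁻¹ * t * z * t⁻¹ = z⁻¹ * (t * z * t⁻¹) := by group
        _ = z⁻¹ * z⁻¹ := by rw [hinv z hzP]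
    rw [e4] at e3
    have e5 : z⁻¹ * z⁻¹ = 1 :=
      hfree _ (Subgroup.mul_mem _ (Subgroup.inv_mem _ hzP) (Subgroup.inv_mem _ hzP)) R hR.1 e3
    have hz2 : z ^ 2 = 1 := by
      have : (z ^ 2)⁻¹ = 1 := by rw [pow_two, mul_inv_rev]; exact e5
      exact inv_eq_one.mp this
    have hzp : z ^ p = 1 := by
      have h7 : (⟨z, hzP⟩ : ↥(P : Subgroup G)) ^ Nat.card ↥(P : Subgroup G) = 1 :=
        pow_card_eq_one'
      rw [hPc] at h7
      exact congrArg Subtype.val h7
    have hcop : Nat.Coprime 2 p := (Nat.coprime_primes Nat.prime_two hp).mpr (Ne.symm hp2)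
    have hz1 : z = 1 := Subgroup.mem_bot.mp
      (mem_of_pow_mem_coprime (⊥ : Subgroup G) z 2 p hcop
        (by rw [hz2]; exact Subgroup.one_mem _) (by rw [hzp]; exact Subgroup.one_mem _))
    have hxy : x = y := by
      rw [hz1] at hz
      have : y * 1 = y * (y⁻¹ * x) := by rw [← hz]
      rw [mul_one, mul_inv_cancel_left] at this
      exact this.symm
    have hRR : R = R' := by rw [hR'z, hz1, one_smul]
    exact Prod.ext hRR hxy

/-- An element inverting a Sylow `p`-subgroup `P` of odd prime order `p` normalizes at most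
`1 + (n_p - 1) / p` Sylow `p`-subgroups. -/
theorem fx_bound [Finite G] (p : ℕ) [Fact p.Prime] (hp2 : p ≠ 2)
    (P : Sylow p G) (hPc : Nat.card ↥(P : Subgroup G) = p) (t : G)
    (hinv : ∀ y ∈ (P : Subgroup G), t * y * t⁻¹ = y⁻¹) :
    (Fx p t).ncard * p + 1 ≤ Nat.card (Sylow p G) + p := by
  have hp : p.Prime := Fact.out
  obtain ⟨S, hS⟩ : ∃ S : Set (Sylow p G), S = {R | R ≠ P} := ⟨_, rfl⟩
  have hScard : S.ncard + 1 = Nat.card (Sylow p G) := by
    have : S = (Set.univ : Set (Sylow p G)) \ {P} := by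
      rw [hS]; ext R; simp
    rw [this, Set.ncard_sdiff_singleton_of_mem (Set.mem_univ P), Set.ncard_univ]
    have : 0 < Nat.card (Sylow p G) := Nat.card_pos
    omega
  have hb := fx_free_bound p p hp2 P hPc t hinv S (by
    intro x hx R hR
    rw [hS] at hR ⊢
    intro h
    apply hR
    have : x⁻¹ • (x • R) = x⁻¹ • P := by rw [h]
    rw [inv_smul_smul] at this
    rw [this]
    exact Sylow.smul_eq_iff_mem_normalizer.mpr
      (Subgroup.le_normalizer (Subgroup.inv_mem _ hx))) (by
    intro x hx R hR hxR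
    rw [hS] at hR
    exact free_act (fun P1 Q1 hPQ => inf_eq_bot_of_card_prime p P1 Q1
      (by rw [card_sylow_eq P1 P]; exact hPc) hPQ) P R (Ne.symm hR) x hx hxR)
  have hsub : Fx p t ⊆ insert P {R | R ∈ S ∧ t • R = R} := by
    intro R hR
    by_cases h : R = P
    · left; exact h
    · right
      refine ⟨?_, hR⟩
      rw [hS]; exact h
  have h3 : (Fx p t).ncard ≤ {R | R ∈ S ∧ t • R = R}.ncard + 1 :=
    (Set.ncard_le_ncard hsub (Set.toFinite _)).trans (Set.ncard_insert_le _ _)
  nlinarith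

/-- The class of an element inverting a Sylow subgroup of odd prime order is large. -/
theorem class_mul_fx_ge [Finite G] (p : ℕ) [Fact p.Prime] (hp2 : p ≠ 2)
    (P : Sylow p G) (hPc : Nat.card ↥(P : Subgroup G) = p) (t : G)
    (hinv : ∀ y ∈ (P : Subgroup G), t * y * t⁻¹ = y⁻¹) :
    Nat.card (Sylow p G) * p ≤ (conjSet t).ncard * (Fx p t).ncard := by
  have hp : p.Prime := Fact.out
  have hf := class_formula p (fun (R : Sylow p G) (s : G) => s • R = R) (by
    intro g R a h
    rw [mul_smul, mul_smul, inv_smul_smul, h]) t P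
  have h0 : {R : Sylow p G | t • R = R} = Fx p t := rfl
  rw [h0] at hf
  rw [hf]
  apply Nat.mul_le_mul_left
  have h1 : Nat.card ↥(P : Subgroup G) = ((P : Subgroup G) : Set G).ncard := rfl
  have h9 : ((P : Subgroup G) : Set G).ncard = p := by rw [← h1]; exact hPc
  refine le_trans (le_of_eq h9.symm) ?_
  apply Set.ncard_le_ncard_of_injOn (fun x : G => x * t * x⁻¹)
  · intro x hx
    have hxP : x ∈ (P : Subgroup G) := hx
    refine ⟨⟨x, rfl⟩, ?_⟩
    show (x * t * x⁻¹) • P = P
    rw [Sylow.smul_eq_iff_mem_normalizer]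
    have htN : t ∈ Subgroup.normalizer ((P : Subgroup G) : Set G) := by
      rw [Subgroup.mem_normalizer_iff]
      intro y
      constructor
      · intro hy
        rw [hinv y hy]
        exact Subgroup.inv_mem _ hy
      · intro hy
        have key : ∀ w ∈ (P : Subgroup G), t⁻¹ * w * t = w⁻¹ := by
          intro w hw
          have h3 := hinv w⁻¹ (Subgroup.inv_mem _ hw)
          rw [inv_inv] at h3
          calc t⁻¹ * w * t = t⁻¹ * (t * w⁻¹ * t⁻¹) * t := by rw [h3]
            _ = w⁻¹ := by group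
        have h4 := key _ hy
        have h5 : t⁻¹ * (t * y * t⁻¹) * t = y := by group
        rw [h5] at h4
        rw [h4]
        exact Subgroup.inv_mem _ hy
    have hxN := Subgroup.le_normalizer (H := (P : Subgroup G)) hxP
    exact Subgroup.mul_mem _ (Subgroup.mul_mem _ hxN htN) (Subgroup.inv_mem _ hxN)
  · intro x hx y hy heq
    have hxP : x ∈ (P : Subgroup G) := hx
    have hyP : y ∈ (P : Subgroup G) := hy
    have heq' : x * t * x⁻¹ = y * t * y⁻¹ := heq
    obtain ⟨z, hz⟩ : ∃ z : G, z = y⁻¹ * x := ⟨_, rfl⟩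
    have hzP : z ∈ (P : Subgroup G) := by
      rw [hz]; exact Subgroup.mul_mem _ (Subgroup.inv_mem _ hyP) hxP
    have e1 : z * t * z⁻¹ = t := by
      rw [hz]
      calc y⁻¹ * x * t * (y⁻¹ * x)⁻¹ = y⁻¹ * (x * t * x⁻¹) * y := by group
        _ = y⁻¹ * (y * t * y⁻¹) * y := by rw [heq']
        _ = t := by group
    have e2 : t * z * t⁻¹ = z := by
      calc t * z * t⁻¹ = (z * t * z⁻¹) * z * t⁻¹ := by rw [e1]
        _ = z := by group
    have e3 : z⁻¹ = z := (hinv z hzP).symm.trans e2
    have hz2 : z ^ 2 = 1 := by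
      rw [pow_two]
      nth_rewrite 1 [← e3]
      exact inv_mul_cancel z
    have hzp : z ^ p = 1 := by
      have h7 : (⟨z, hzP⟩ : ↥(P : Subgroup G)) ^ Nat.card ↥(P : Subgroup G) = 1 :=
        pow_card_eq_one'
      rw [hPc] at h7
      exact congrArg Subtype.val h7
    have hcop : Nat.Coprime 2 p := (Nat.coprime_primes Nat.prime_two hp).mpr (Ne.symm hp2)
    have hz1 : z = 1 := Subgroup.mem_bot.mp
      (mem_of_pow_mem_coprime (⊥ : Subgroup G) z 2 p hcop
        (by rw [hz2]; exact Subgroup.one_mem _) (by rw [hzp]; exact Subgroup.one_mem _))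
    rw [hz1] at hz
    have : y * 1 = y * (y⁻¹ * x) := by rw [← hz]
    rw [mul_one, mul_inv_cancel_left] at this
    exact this.symm

/-- In the centralizer of a Sylow `q`-subgroup `R` of order `q`, at most `|C(R)| / q` elements
have order prime to `q`. -/
theorem card_prime_to_le [Finite G] (q : ℕ) [Fact q.Prime] (R : Sylow q G)
    (hRc : Nat.card ↥(R : Subgroup G) = q) :
    {g : G | g ∈ Subgroup.centralizer ((R : Subgroup G) : Set G) ∧ ¬ q ∣ orderOf g}.ncard * q ≤
      Nat.card ↥(Subgroup.centralizer ((R : Subgroup G) : Set G)) := by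
  have hq : q.Prime := Fact.out
  have hab := sylow_le_centralizer q 1 (Or.inl rfl) R (by rw [hRc, pow_one])
  have h1 : Nat.card ↥(R : Subgroup G) = ((R : Subgroup G) : Set G).ncard := rfl
  have h2 : Nat.card ↥(Subgroup.centralizer ((R : Subgroup G) : Set G)) =
      ((Subgroup.centralizer ((R : Subgroup G) : Set G) : Subgroup G) : Set G).ncard := rfl
  have h3 : {g : G | g ∈ Subgroup.centralizer ((R : Subgroup G) : Set G) ∧
      ¬ q ∣ orderOf g}.ncard * q =
      ({g : G | g ∈ Subgroup.centralizer ((R : Subgroup G) : Set G) ∧ ¬ q ∣ orderOf g} ×ˢ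
        ((R : Subgroup G) : Set G)).ncard := by
    rw [Set.ncard_prod, ← h1, hRc]
  rw [h3, h2]
  apply Set.ncard_le_ncard_of_injOn (fun w : G × G => w.2 * w.1)
  · rintro ⟨u, r⟩ ⟨hu, hr⟩
    exact Subgroup.mul_mem _ (hab hr) hu.1
  · rintro ⟨u, r⟩ ⟨hu, hr⟩ ⟨u', r'⟩ ⟨hu', hr'⟩ heq
    have hrR : r ∈ (R : Subgroup G) := hr
    have hrR' : r' ∈ (R : Subgroup G) := hr'
    have heq' : r * u = r' * u' := heq
    obtain ⟨z, hz⟩ : ∃ z : G, z = r'⁻¹ * r := ⟨_, rfl⟩
    have hzR : z ∈ (R : Subgroup G) := by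
      rw [hz]; exact Subgroup.mul_mem _ (Subgroup.inv_mem _ hrR') hrR
    have hu'z : u' = z * u := by
      rw [hz, mul_assoc, heq', inv_mul_cancel_left]
    have hz1 : z = 1 := by
      by_contra hne
      have hzo : orderOf z = q := by
        have h7 : orderOf (⟨z, hzR⟩ : ↥(R : Subgroup G)) ∣ Nat.card ↥(R : Subgroup G) :=
          orderOf_dvd_natCard _
        rw [Subgroup.orderOf_mk, hRc] at h7
        rcases (Nat.dvd_prime hq).mp h7 with h | h
        · exact absurd (orderOf_eq_one_iff.mp h) hne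
        · exact h
      have hcomm : Commute z u := (Subgroup.mem_centralizer_iff.mp hu.1 z hzR)
      have hcop : (orderOf z).Coprime (orderOf u) := by
        rw [hzo]
        exact (Nat.Prime.coprime_iff_not_dvd hq).mpr hu.2
      have ho := hcomm.orderOf_mul_eq_mul_orderOf_of_coprime hcop
      apply hu'.2
      rw [hu'z, ho, hzo]
      exact dvd_mul_right _ _
    rw [hz1] at hz hu'z
    rw [one_mul] at hu'z
    have hrr : r = r' := by
      have : r' * 1 = r' * (r'⁻¹ * r) := by rw [← hz]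
      rw [mul_one, mul_inv_cancel_left] at this
      exact this.symm
    exact Prod.ext hu'z.symm hrr

/-- Lower bound for the number of elements of order divisible by `q`, when the Sylow
`q`-subgroups have order `q` and centralizers of order `c`. -/
theorem card_dvd_order_ge [Finite G] (q : ℕ) [Fact q.Prime]
    (hq : ∀ R : Sylow q G, Nat.card ↥(R : Subgroup G) = q) (c : ℕ)
    (hc : ∀ R : Sylow q G, Nat.card ↥(Subgroup.centralizer ((R : Subgroup G) : Set G)) = c) :
    Nat.card (Sylow q G) * (c * (q - 1)) ≤ {g : G | q ∣ orderOf g}.ncard * q := by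
  classical
  have hqp : q.Prime := Fact.out
  haveI : Fintype G := Fintype.ofFinite G
  haveI : Fintype (Sylow q G) := Fintype.ofFinite _
  obtain ⟨D, hD⟩ : ∃ D : Sylow q G → Set G, D = fun (R : Sylow q G) =>
      {g : G | g ∈ Subgroup.centralizer ((R : Subgroup G) : Set G) ∧ q ∣ orderOf g} := ⟨_, rfl⟩
  -- each `D R` is large
  have hbig : ∀ R : Sylow q G, c * (q - 1) ≤ (D R).ncard * q := by
    intro R
    have h1 := card_prime_to_le q R (hq R)
    rw [hc R] at h1
    have h2 : Nat.card ↥(Subgroup.centralizer ((R : Subgroup G) : Set G)) =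
        ((Subgroup.centralizer ((R : Subgroup G) : Set G) : Subgroup G) : Set G).ncard := rfl
    have h3 : ((Subgroup.centralizer ((R : Subgroup G) : Set G) : Subgroup G) : Set G) =
        D R ∪ {g : G | g ∈ Subgroup.centralizer ((R : Subgroup G) : Set G) ∧ ¬ q ∣ orderOf g} := by
      rw [hD]
      ext g
      simp only [SetLike.mem_coe, Set.mem_union, Set.mem_ofPred_eq]
      tauto
    have h4 : c ≤ (D R).ncard +
        {g : G | g ∈ Subgroup.centralizer ((R : Subgroup G) : Set G) ∧ ¬ q ∣ orderOf g}.ncard := by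
      rw [← hc R, h2, h3]
      exact Set.ncard_union_le _ _
    have hq1 : 1 ≤ q := hqp.pos
    obtain ⟨q', rfl⟩ : ∃ q', q = q' + 1 := ⟨q - 1, by omega⟩
    simp only [Nat.add_sub_cancel]
    nlinarith
  -- the `D R` are pairwise disjoint
  have hdisj : ∀ R ∈ (Finset.univ : Finset (Sylow q G)), ∀ R' ∈ (Finset.univ : Finset (Sylow q G)),
      R ≠ R' → Disjoint (D R).toFinset (D R').toFinset := by
    intro R _ R' _ hne
    rw [Finset.disjoint_left]
    intro g hg hg'
    rw [Set.mem_toFinset, hD] at hg hg'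
    obtain ⟨z, hz⟩ : ∃ z : G, z = g ^ (orderOf g / q) := ⟨_, rfl⟩
    have hzo : orderOf z = q := by
      rw [hz]
      exact orderOf_pow_orderOf_div (orderOf_pos g).ne' hg.2
    have hzq : z ^ q ^ 1 = 1 := by
      rw [pow_one, ← hzo]; exact pow_orderOf_eq_one z
    have hzR : z ∈ (R : Subgroup G) := by
      apply pelt_mem z 1 hzq R
      apply Subgroup.centralizer_le_normalizer
      rw [hz]; exact Subgroup.pow_mem _ hg.1 _
    have hzR' : z ∈ (R' : Subgroup G) := by
      apply pelt_mem z 1 hzq R'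
      apply Subgroup.centralizer_le_normalizer
      rw [hz]; exact Subgroup.pow_mem _ hg'.1 _
    have hbot := inf_eq_bot_of_card_prime q R R' (hq R) hne
    have hz1 : z ∈ (R : Subgroup G) ⊓ R' := ⟨hzR, hzR'⟩
    rw [hbot, Subgroup.mem_bot] at hz1
    rw [hz1, orderOf_one] at hzo
    exact hqp.one_lt.ne hzo
  have hcard := Finset.card_biUnion hdisj
  have hsub : (Finset.univ : Finset (Sylow q G)).biUnion (fun R => (D R).toFinset) ⊆
      {g : G | q ∣ orderOf g}.toFinset := by
    intro g hg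
    rw [Finset.mem_biUnion] at hg
    obtain ⟨R, -, hgR⟩ := hg
    rw [Set.mem_toFinset, hD] at hgR
    rw [Set.mem_toFinset]
    exact hgR.2
  have hle := Finset.card_le_card hsub
  rw [hcard] at hle
  have hsum : ∑ R : Sylow q G, c * (q - 1) ≤ ∑ R : Sylow q G, (D R).toFinset.card * q := by
    apply Finset.sum_le_sum
    intro R _
    rw [← Set.ncard_eq_toFinset_card']
    exact hbig R
  rw [Finset.sum_const, Finset.card_univ, ← Nat.card_eq_fintype_card, smul_eq_mul,
    ← Finset.sum_mul] at hsum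
  rw [Set.ncard_eq_toFinset_card']
  exact hsum.trans (Nat.mul_le_mul_right q hle)

end Cfsg.Agent.Lib.Helper20.InvPairs
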