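import Cfsg.Agent.Lib.Helper20.PrimeDegNorm

/-!
# Groups of order 168 of permutations of seven letters are simple

Also: the general linear group of degree 3 over the field of two elements is simple of order 168.
-/

set_option autoImplicit false

namespace Cfsg.Agent.Lib.Helper20.Simple168

open Cfsg.Agent.Lib.Helper20.PrimeDeg

/-- A group of permutations of seven letters of order divisible by seven is transitive. -/
theorem pretransitive7 {α : Type*} [Fintype α] [DecidableEq α] (hα : Fintype.card α = 7)
    (G : Subgroup (Equiv.Perm α)) (h7 : 7 ∣ Nat.card G) : MulAction.IsPretransitive G α := by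
  have : Fact (Nat.Prime 7) := ⟨by norm_num⟩
  obtain ⟨x, hx⟩ := exists_prime_orderOf_dvd_card' 7 h7
  have hx' : orderOf (x : Equiv.Perm α) = 7 := by rw [Subgroup.orderOf_coe]; exact hx
  have hcyc : (x : Equiv.Perm α).IsCycle :=
    Equiv.Perm.isCycle_of_prime_order'' (by rw [hα]; norm_num) (by rw [hx', hα])
  have hsupp : (x : Equiv.Perm α).support = Finset.univ := by
    apply Finset.eq_univ_of_card
    rw [← hcyc.orderOf, hx', hα]
  constructor
  intro a b
  have ha : (x : Equiv.Perm α) a ≠ a :=
    Equiv.Perm.mem_support.1 (by rw [hsupp]; exact Finset.mem_univ a)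
  have hb : (x : Equiv.Perm α) b ≠ b :=
    Equiv.Perm.mem_support.1 (by rw [hsupp]; exact Finset.mem_univ b)
  obtain ⟨i, hi⟩ := hcyc.exists_zpow_eq ha hb
  refine ⟨x ^ i, ?_⟩
  show ((x ^ i : ↥G) : Equiv.Perm α) a = b
  rw [Subgroup.coe_zpow]
  exact hi

theorem num1 (a n : ℕ) (h1 : a * n = 168) (h2 : a ∣ 42) (h3 : n % 7 = 1) : a = 21 := by
  have ha : a ≤ 42 := Nat.le_of_dvd (by norm_num) h2
  interval_cases a <;> omega

theorem num2 (c i : ℕ) (h1 : c * i = 168) (h2 : i ∣ 21) (h3 : 7 ∣ c) : i = 1 ∨ c = 56 := by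
  have hi : i ≤ 21 := Nat.le_of_dvd (by norm_num) h2
  interval_cases i <;> omega

theorem num3 (a n : ℕ) (h1 : a * n = 56) (h2 : a ∣ 42) (h3 : n % 7 = 1) : a = 7 := by
  have ha : a ≤ 42 := Nat.le_of_dvd (by norm_num) h2
  interval_cases a <;> omega

/-- A group of order 168 of permutations of seven letters is simple. -/
theorem simple_of_card {α : Type*} [Fintype α] [DecidableEq α] (hα : Fintype.card α = 7)
    (G : Subgroup (Equiv.Perm α)) (hG : Nat.card G = 168) : IsSimpleGroup G := by
  have : Fact (Nat.Prime 7) := ⟨by norm_num⟩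
  have htr : MulAction.IsPretransitive G α := pretransitive7 hα G (by rw [hG]; norm_num)
  have hnt : Nontrivial G := by
    rw [← Finite.one_lt_card_iff_nontrivial, hG]; norm_num
  have hnorm : ∀ P : Sylow 7 G,
      Nat.card (Subgroup.normalizer ((P : Subgroup G) : Set G)) = 21 := by
    intro P
    have h1 := card_normalizer_dvd hα G P
    have h2 : Nat.card (Sylow 7 G) ≡ 1 [MOD 7] := card_sylow_modEq_one 7 G
    have h3 : Nat.card (Sylow 7 G)
        = (Subgroup.normalizer ((P : Subgroup G) : Set G)).index := P.card_eq_index_normalizer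
    have h4 := Subgroup.card_mul_index (Subgroup.normalizer ((P : Subgroup G) : Set G))
    rw [hG, ← h3] at h4
    exact num1 _ _ h4 h1 h2
  apply IsSimpleGroup.mk
  intro N hN
  by_cases hbot : N = ⊥
  · exact Or.inl hbot
  right
  have h7 : 7 ∣ Nat.card N := prime_dvd_card_of_normal hα G N hbot
  obtain ⟨P⟩ : Nonempty (Sylow 7 N) := inferInstance
  have hfr := Sylow.normalizer_sup_eq_top P
  have hQp : IsPGroup 7 ((P : Subgroup N).map N.subtype) := P.isPGroup'.map N.subtype
  obtain ⟨S, hS⟩ := hQp.exists_le_sylow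
  have hScard := card_sylow hα G S
  have hQcard : Nat.card ((P : Subgroup N).map N.subtype) = Nat.card P :=
    Subgroup.card_map_of_injective N.subtype_injective
  have hP7 : 7 ∣ Nat.card P := P.dvd_card_of_dvd_card h7
  have hQS : (P : Subgroup N).map N.subtype = (S : Subgroup G) := by
    apply Subgroup.eq_of_le_of_card_ge hS
    rw [hQcard]
    have : Nat.card (S : Subgroup G) = 7 := hScard
    rw [this]
    exact Nat.le_of_dvd Nat.card_pos hP7
  have hidx : N.index ∣ 21 := by
    have h1 : N.relIndex (Subgroup.normalizer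
        (((P : Subgroup N).map N.subtype : Subgroup G) : Set G) ⊔ N)
        = N.relIndex (Subgroup.normalizer
          (((P : Subgroup N).map N.subtype : Subgroup G) : Set G)) :=
      Subgroup.relIndex_sup_right _ _
    rw [hfr, Subgroup.relIndex_top_right] at h1
    rw [h1, ← hnorm S, ← hQS]
    exact Subgroup.relIndex_dvd_card _ _
  have hc := Subgroup.card_mul_index N
  rw [hG] at hc
  rcases num2 _ _ hc hidx h7 with h1 | h56
  · exact Subgroup.index_eq_one.1 h1
  · exfalso
    have hN' : Nat.card (N.map G.subtype) = 56 := by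
      rw [Subgroup.card_map_of_injective G.subtype_injective, h56]
    have htr' : MulAction.IsPretransitive (N.map G.subtype) α :=
      pretransitive7 hα _ (by rw [hN']; norm_num)
    obtain ⟨P'⟩ : Nonempty (Sylow 7 (N.map G.subtype)) := inferInstance
    have h1 := card_normalizer_dvd hα _ P'
    have h2 : Nat.card (Sylow 7 (N.map G.subtype)) ≡ 1 [MOD 7] := card_sylow_modEq_one 7 _
    have h3 : Nat.card (Sylow 7 (N.map G.subtype)) = (Subgroup.normalizer
        ((P' : Subgroup (N.map G.subtype)) : Set (N.map G.subtype))).index :=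
      P'.card_eq_index_normalizer
    have h4 := Subgroup.card_mul_index
      (Subgroup.normalizer ((P' : Subgroup (N.map G.subtype)) : Set (N.map G.subtype)))
    rw [hN', ← h3] at h4
    have h5 := card_eq_of_card_normalizer hα _ P' (num3 _ _ h4 h1 h2)
    omega

/-- The nonzero vectors of the space of dimension three over the field of two elements. -/
abbrev V7 : Type := {v : Fin 3 → ZMod 2 // v ≠ 0}

theorem card_V7 : Fintype.card V7 = 7 := by decide +kernel

/-- The action of the general linear group on the nonzero vectors. -/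
@[reducible] def act7 : MulAction (GL (Fin 3) (ZMod 2)) V7 where
  smul g v := ⟨(g : Matrix (Fin 3) (Fin 3) (ZMod 2)).mulVec v.1, fun h => v.2 (by
    have h1 : ((g⁻¹ : GL (Fin 3) (ZMod 2)) : Matrix (Fin 3) (Fin 3) (ZMod 2)).mulVec
        ((g : Matrix (Fin 3) (Fin 3) (ZMod 2)).mulVec v.1) = 0 := by
      rw [h, Matrix.mulVec_zero]
    rw [Matrix.mulVec_mulVec, ← Units.val_mul, inv_mul_cancel, Units.val_one,
      Matrix.one_mulVec] at h1
    exact h1)⟩
  one_smul v := Subtype.ext (Matrix.one_mulVec v.1)
  mul_smul g h v := Subtype.ext (by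
    show ((g * h : GL (Fin 3) (ZMod 2)) : Matrix (Fin 3) (Fin 3) (ZMod 2)).mulVec v.1
      = (g : Matrix (Fin 3) (Fin 3) (ZMod 2)).mulVec
        ((h : Matrix (Fin 3) (Fin 3) (ZMod 2)).mulVec v.1)
    rw [Matrix.mulVec_mulVec, Units.val_mul])

/-- The permutation representation on the nonzero vectors. -/
def rho7 : GL (Fin 3) (ZMod 2) →* Equiv.Perm V7 := @MulAction.toPermHom _ _ _ act7

theorem rho7_apply (g : GL (Fin 3) (ZMod 2)) (v : V7) :
    ((rho7 g v : V7) : Fin 3 → ZMod 2) = (g : Matrix (Fin 3) (Fin 3) (ZMod 2)).mulVec v.1 := rfl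

theorem rho7_injective : Function.Injective rho7 := by
  rw [injective_iff_map_eq_one]
  intro g hg
  apply Units.ext
  ext i j
  have hne : (Pi.single j 1 : Fin 3 → ZMod 2) ≠ 0 := by
    intro h
    have := congrFun h j
    rw [Pi.single_eq_same] at this
    exact one_ne_zero this
  have h1 := rho7_apply g ⟨Pi.single j 1, hne⟩
  rw [hg] at h1
  have h2 := congrFun h1 i
  rw [Matrix.mulVec_single_one] at h2
  show (g : Matrix (Fin 3) (Fin 3) (ZMod 2)) i j = (1 : Matrix (Fin 3) (Fin 3) (ZMod 2)) i j
  rw [Matrix.one_apply]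
  have h3 : (g : Matrix (Fin 3) (Fin 3) (ZMod 2)) i j = (Pi.single j 1 : Fin 3 → ZMod 2) i :=
    h2.symm
  rw [h3, Pi.single_apply]

theorem card_gl32 : Nat.card (GL (Fin 3) (ZMod 2)) = 168 := by
  rw [Matrix.card_GL_field]
  simp [Fin.prod_univ_three]

/-- The general linear group of degree three over the field of two elements is simple. -/
theorem gl32_simple : IsSimpleGroup (GL (Fin 3) (ZMod 2)) := by
  have e : GL (Fin 3) (ZMod 2) ≃* rho7.range := MonoidHom.ofInjective rho7_injective
  have hr : Nat.card rho7.range = 168 := by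
    rw [← Nat.card_congr e.toEquiv, card_gl32]
  have hs : IsSimpleGroup rho7.range := simple_of_card card_V7 rho7.range hr
  exact e.isSimpleGroup

end Cfsg.Agent.Lib.Helper20.Simple168
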