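import Mathlib
import Cfsg.Agent.Lib.Lead.SimpleSylC

/-!
Transfer of an involution into a group of order two, and Thompson's transfer lemma.
-/

set_option autoImplicit false

namespace Cfsg.Agent.Lib.Helper20.TransferInv

open scoped Pointwise
open Cfsg.Agent.Lib.Lead.SimpleSyl

theorem z2_cases : ∀ a : Multiplicative (ZMod 2),
    Multiplicative.toAdd a = if a ≠ 1 then 1 else 0 := by
  decide

theorem z2_eq : ∀ a b : Multiplicative (ZMod 2), a ≠ 1 → b ≠ 1 → a = b := by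
  decide

theorem prod_z2 {ι : Type*} (s : Finset ι) (f : ι → Multiplicative (ZMod 2))
    [DecidablePred fun i => f i ≠ 1] :
    ∏ i ∈ s, f i = Multiplicative.ofAdd (((s.filter (fun i => f i ≠ 1)).card : ℕ) : ZMod 2) := by
  apply Multiplicative.toAdd.injective
  rw [toAdd_prod, toAdd_ofAdd]
  rw [Finset.natCast_card_filter]
  refine Finset.sum_congr rfl (fun i _ => ?_)
  have h0 := z2_cases (f i)
  by_cases h : f i ≠ 1
  · rw [if_pos h]; rw [h0, if_pos h]
  · rw [if_neg h]; rw [h0, if_neg h]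

/-- The transfer of an involution `z` into a group of order two is the parity of the number of
`z`-fixed cosets `tH` with `ϕ (t⁻¹ z t) ≠ 1`. -/
theorem transfer_invol {G : Type*} [Group G] [Finite G] (H : Subgroup G)
    (ϕ : ↥H →* Multiplicative (ZMod 2)) (z : G) (hzz : z * z = 1) :
    ∃ t : G ⧸ H → G, (∀ q, ((t q : G) : G ⧸ H) = q) ∧
      MonoidHom.transfer ϕ z = Multiplicative.ofAdd
        ((({q : G ⧸ H | ∃ h : (t q)⁻¹ * z * t q ∈ H, ϕ ⟨_, h⟩ ≠ 1}.ncard : ℕ) : ZMod 2)) := by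
  classical
  let Φ : G → Multiplicative (ZMod 2) := fun g => if h : g ∈ H then ϕ ⟨g, h⟩ else 1
  have hΦ : ∀ (g : G) (h : g ∈ H), ϕ ⟨g, h⟩ = Φ g := by
    intro g h
    show ϕ ⟨g, h⟩ = (if h : g ∈ H then ϕ ⟨g, h⟩ else 1)
    rw [dif_pos h]
  have hΦmul : ∀ a b : G, a ∈ H → b ∈ H → Φ (a * b) = Φ a * Φ b := by
    intro a b ha hb
    rw [← hΦ a ha, ← hΦ b hb, ← hΦ (a * b) (H.mul_mem ha hb), ← map_mul]
    rfl
  have hΦ1 : Φ 1 = 1 := by
    rw [← hΦ 1 H.one_mem]; exact map_one ϕ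
  have : H.FiniteIndex := inferInstance
  let _ : Fintype (G ⧸ H) := H.fintypeQuotientOfFiniteIndex
  let T : H.LeftTransversal := default
  let t : G ⧸ H → G := fun q => (T.2.leftQuotientEquiv q : G)
  have ht : ∀ q, ((t q : G) : G ⧸ H) = q := fun q => T.2.quotientGroupMk_leftQuotientEquiv q
  have hsm : ∀ (g a : G), ((g * a : G) : G ⧸ H) = g • ((a : G) : G ⧸ H) := fun g a => rfl
  refine ⟨t, ht, ?_⟩
  have hV : MonoidHom.transfer ϕ z = ∏ q : G ⧸ H, Φ ((t q)⁻¹ * (z * t (z⁻¹ • q))) := by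
    rw [MonoidHom.transfer_def ϕ T z]
    unfold Subgroup.leftTransversals.diff
    refine Finset.prod_congr rfl (fun q _ => ?_)
    refine (hΦ _ _).trans (congrArg Φ ?_)
    rw [Subgroup.smul_apply_eq_smul_apply_inv_smul]
    rfl
  have hzinv : z⁻¹ = z := inv_eq_of_mul_eq_one_right hzz
  let f : G ⧸ H → Multiplicative (ZMod 2) := fun q => Φ ((t q)⁻¹ * (z * t (z⁻¹ • q)))
  have hpair : ∀ q : G ⧸ H, f q * f (z • q) = 1 := by
    intro q
    have h1 : (t q)⁻¹ * (z * t (z • q)) ∈ H := by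
      apply QuotientGroup.eq.mp
      rw [ht, hsm, ht, smul_smul, hzz, one_smul]
    have h2 : (t (z • q))⁻¹ * (z * t q) ∈ H := by
      apply QuotientGroup.eq.mp
      rw [ht, hsm, ht]
    show Φ ((t q)⁻¹ * (z * t (z⁻¹ • q))) * Φ ((t (z • q))⁻¹ * (z * t (z⁻¹ • z • q))) = 1
    rw [hzinv, smul_smul, hzz, one_smul, ← hΦmul _ _ h1 h2]
    have h3 : (t q)⁻¹ * (z * t (z • q)) * ((t (z • q))⁻¹ * (z * t q)) = 1 := by
      calc _ = (t q)⁻¹ * (z * z) * t q := by group
        _ = 1 := by rw [hzz]; group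
    rw [h3, hΦ1]
  have hsplit : ∏ q : G ⧸ H, f q
      = ∏ q ∈ Finset.univ.filter (fun q : G ⧸ H => z • q = q), f q := by
    rw [← Finset.prod_filter_mul_prod_filter_not Finset.univ (fun q : G ⧸ H => z • q = q) f]
    have h1 : ∏ q ∈ Finset.univ.filter (fun q : G ⧸ H => ¬ z • q = q), f q = 1 := by
      refine Finset.prod_involution (fun q _ => z • q) (fun q _ => hpair q) ?_ ?_ ?_
      · intro q hq _
        exact (Finset.mem_filter.mp hq).2
      · intro q hq
        rw [Finset.mem_filter] at hq ⊢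
        refine ⟨Finset.mem_univ _, ?_⟩
        rw [smul_smul, hzz, one_smul]
        exact fun h => hq.2 h.symm
      · intro q hq
        rw [smul_smul, hzz, one_smul]
    rw [h1, mul_one]
  have hfixmem : ∀ q : G ⧸ H, z • q = q ↔ (t q)⁻¹ * z * t q ∈ H := by
    intro q
    rw [mul_assoc, ← QuotientGroup.eq, hsm, ht]
    exact eq_comm
  have hBcard : (Finset.filter (fun q => f q ≠ 1)
      (Finset.univ.filter (fun q : G ⧸ H => z • q = q))).card
      = {q : G ⧸ H | ∃ h : (t q)⁻¹ * z * t q ∈ H, ϕ ⟨_, h⟩ ≠ 1}.ncard := by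
    rw [← Set.ncard_coe_finset]
    congr 1
    ext q
    simp only [Finset.coe_filter, Finset.mem_filter, Finset.mem_univ, true_and, Set.mem_ofPred_eq]
    show (z • q = q ∧ Φ ((t q)⁻¹ * (z * t (z⁻¹ • q))) ≠ 1)
      ↔ (∃ h : (t q)⁻¹ * z * t q ∈ H, ϕ ⟨_, h⟩ ≠ 1)
    constructor
    · rintro ⟨h1, h2⟩
      have hm := (hfixmem q).mp h1
      refine ⟨hm, ?_⟩
      rw [hzinv, h1, ← mul_assoc] at h2
      rw [hΦ _ hm]
      exact h2
    · rintro ⟨hm, h2⟩
      have h1 := (hfixmem q).mpr hm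
      refine ⟨h1, ?_⟩
      rw [hzinv, h1, ← mul_assoc, ← hΦ _ hm]
      exact h2
  rw [hV]
  show ∏ q : G ⧸ H, f q = _
  rw [hsplit, prod_z2, hBcard]

/-- **Thompson transfer (general form).** Let `H` have odd index, `ϕ : H → Z/2` and `u` an
involution all of whose `G`-conjugates lying in `H` are outside `ker ϕ`. Then the transfer of
`u` is non-trivial. -/
theorem transfer_ne_one {G : Type*} [Group G] [Finite G] (H : Subgroup G) (hidx : ¬ 2 ∣ H.index)
    (ϕ : ↥H →* Multiplicative (ZMod 2)) (u : G) (huu : u * u = 1)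
    (hconj : ∀ g : G, ∀ h : g⁻¹ * u * g ∈ H, ϕ ⟨_, h⟩ ≠ 1) :
    MonoidHom.transfer ϕ u ≠ 1 := by
  have : Fact (Nat.Prime 2) := ⟨Nat.prime_two⟩
  obtain ⟨t, ht, hV⟩ := transfer_invol H ϕ u huu
  have hsm : ∀ (g a : G), ((g * a : G) : G ⧸ H) = g • ((a : G) : G ⧸ H) := fun g a => rfl
  have hset : {q : G ⧸ H | ∃ h : (t q)⁻¹ * u * t q ∈ H, ϕ ⟨_, h⟩ ≠ 1}
      = {q : G ⧸ H | q ∈ (Set.univ : Set (G ⧸ H)) ∧ (fun (g : G) (q : G ⧸ H) => g • q) u q = q} := by
    ext q
    simp only [Set.mem_ofPred_eq, Set.mem_univ, true_and]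
    constructor
    · rintro ⟨h, _⟩
      rw [mul_assoc, ← QuotientGroup.eq, hsm, ht] at h
      exact h.symm
    · intro h
      have hm : (t q)⁻¹ * u * t q ∈ H := by
        rw [mul_assoc, ← QuotientGroup.eq, hsm, ht]
        exact h.symm
      exact ⟨hm, hconj _ hm⟩
  have hmod := gen_modEq_elt (fun (g : G) (q : G ⧸ H) => g • q) (fun a => one_smul G a)
    (fun g h a => mul_smul g h a) 2 u 1 (by rw [pow_one, pow_two]; exact huu) Set.univ
    (fun _ _ => Set.mem_univ _)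
  rw [← hset] at hmod
  have h1 : (Set.univ : Set (G ⧸ H)).ncard = H.index := by
    rw [Set.ncard_univ]; rfl
  rw [h1] at hmod
  intro h
  rw [hV] at h
  have h3 : (({q : G ⧸ H | ∃ h : (t q)⁻¹ * u * t q ∈ H, ϕ ⟨_, h⟩ ≠ 1}.ncard : ℕ) : ZMod 2) = 0 := by
    have := congrArg Multiplicative.toAdd h
    simpa using this
  exact hidx ((hmod.dvd_iff (dvd_refl 2)).mpr ((ZMod.natCast_eq_zero_iff _ 2).mp h3))

/-- The kernel of a non-trivial homomorphism onto the group of order two has index two. -/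
theorem ker_index_two {G : Type*} [Group G] (f : G →* Multiplicative (ZMod 2)) (u : G)
    (hu : f u ≠ 1) : f.ker.index = 2 := by
  rw [Subgroup.index_ker]
  have h1 : f.range = ⊤ := by
    rw [eq_top_iff]
    intro y _
    by_cases hy : y = 1
    · rw [hy]; exact Subgroup.one_mem _
    · exact ⟨u, z2_eq _ _ hu hy⟩
  rw [h1, Subgroup.card_top]
  simp

end Cfsg.Agent.Lib.Helper20.TransferInv
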